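import Cfsg.Agent.CoprimeAction.Abelian
import Cfsg.Agent.CoprimeAction.Frattini
import Cfsg.Agent.CoprimeAction.Invariant
import Mathlib.GroupTheory.Transfer

/-!
Fixed points of a coprime group of odd prime order in `[H, A]`, and in the subgroups `[h, A]`.
-/

set_option autoImplicit false
set_option linter.unusedSectionVars false

namespace CfsgLib.CommFixed

open scoped commutatorElement Pointwise
open CoprimeAction (commutator_le_of_normalizer exists_commutator_mul_centralizer exists_mem_centralizer)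

variable {X : Type*} [Group X]

/-- `[h, A]`. -/
def commOf (A : Subgroup X) (h : X) : Subgroup X :=
  Subgroup.closure {g | ∃ b ∈ A, g = ⁅h⁻¹, b⁆}

/-- The join of the fixed points in the `[h, A]`, `h ∈ H`. -/
def fixJoin (A H : Subgroup X) : Subgroup X :=
  ⨆ h : ↥H, commOf A (h : X) ⊓ Subgroup.centralizer (A : Set X)

theorem fixJoin_mono (A : Subgroup X) {L H : Subgroup X} (h : L ≤ H) : fixJoin A L ≤ fixJoin A H :=
  iSup_le fun l => le_iSup (fun m : ↥H => commOf A (m : X) ⊓ Subgroup.centralizer (A : Set X)) ⟨l, h l.2⟩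

theorem mem_fixJoin {A H : Subgroup X} {h c : X} (hh : h ∈ H) (hc : c ∈ commOf A h)
    (hcA : c ∈ Subgroup.centralizer (A : Set X)) : c ∈ fixJoin A H :=
  (le_iSup (fun m : ↥H => commOf A (m : X) ⊓ Subgroup.centralizer (A : Set X)) ⟨h, hh⟩) ⟨hc, hcA⟩

theorem fixJoin_le_centralizer (A H : Subgroup X) : fixJoin A H ≤ Subgroup.centralizer (A : Set X) :=
  iSup_le fun _ => inf_le_right

theorem commOf_le {A : Subgroup X} {H : Subgroup X} {h : X} (hh : h ∈ H) : commOf A h ≤ ⁅H, A⁆ :=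
  (Subgroup.closure_le _).2 fun _ ⟨_, hb, e⟩ => e ▸ Subgroup.commutator_mem_commutator (inv_mem hh) hb

theorem fixJoin_le (A : Subgroup X) {H : Subgroup X} (hAH : A ≤ Subgroup.normalizer (H : Set X)) :
    fixJoin A H ≤ H :=
  iSup_le fun h => inf_le_left.trans ((commOf_le h.2).trans (commutator_le_of_normalizer hAH))

theorem le_normalizer_of_closure {A : Subgroup X} {S : Set X}
    (h : ∀ a ∈ A, ∀ s ∈ S, a * s * a⁻¹ ∈ Subgroup.closure S) :
    A ≤ Subgroup.normalizer (Subgroup.closure S : Set X) := by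
  rw [Subgroup.le_normalizer_iff]
  intro a ha x hx
  have hle : Subgroup.closure S ≤ (Subgroup.closure S).comap (MulAut.conj a).toMonoidHom :=
    (Subgroup.closure_le _).2 fun s hs => h a ha s hs
  exact hle hx

theorem le_normalizer_commOf (A : Subgroup X) (h : X) : A ≤ Subgroup.normalizer (commOf A h : Set X) := by
  refine le_normalizer_of_closure ?_
  rintro a ha _ ⟨b, hb, rfl⟩
  have e : a * ⁅h⁻¹, b⁆ * a⁻¹ = ⁅h⁻¹, a⁆⁻¹ * ⁅h⁻¹, a * b⁆ := by
    simp only [commutatorElement_def]; group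
  rw [e]
  exact mul_mem (inv_mem (Subgroup.subset_closure ⟨a, ha, rfl⟩))
    (Subgroup.subset_closure ⟨a * b, mul_mem ha hb, rfl⟩)

theorem map_commOf {Y : Type*} [Group Y] (f : X →* Y) (A : Subgroup X) (h : X) :
    (commOf A h).map f = commOf (A.map f) (f h) := by
  rw [commOf, commOf, MonoidHom.map_closure]
  congr 1
  ext y
  constructor
  · rintro ⟨_, ⟨b, hb, rfl⟩, rfl⟩
    exact ⟨f b, ⟨b, hb, rfl⟩, by rw [map_commutatorElement, map_inv]⟩
  · rintro ⟨_, ⟨b, hb, rfl⟩, rfl⟩
    exact ⟨_, ⟨b, hb, rfl⟩, by rw [map_commutatorElement, map_inv]⟩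

/-- Transport along an injective homomorphism. -/
theorem map_fixJoin_le {Y : Type*} [Group Y] (f : X →* Y) (A H : Subgroup X) :
    (fixJoin A H).map f ≤ fixJoin (A.map f) (H.map f) := by
  rw [fixJoin, Subgroup.map_iSup]
  refine iSup_le fun h => ?_
  rintro _ ⟨c, ⟨hc1, hc2⟩, rfl⟩
  refine mem_fixJoin (Subgroup.mem_map_of_mem f h.2) ?_ ?_
  · rw [← map_commOf]; exact Subgroup.mem_map_of_mem f hc1
  · refine Subgroup.mem_centralizer_iff.2 ?_
    rintro _ ⟨a, ha, rfl⟩
    rw [← map_mul, ← map_mul, Subgroup.mem_centralizer_iff.1 hc2 a ha]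

theorem conj_commOf {A : Subgroup X} {c : X} (hc : c ∈ Subgroup.centralizer (A : Set X)) {h d : X}
    (hd : d ∈ commOf A h) : c * d * c⁻¹ ∈ commOf A (c * h * c⁻¹) := by
  have hA : A.map (MulAut.conj c).toMonoidHom = A := by
    have hfix : ∀ a ∈ A, c * a * c⁻¹ = a := fun a ha => by
      rw [← Subgroup.mem_centralizer_iff.1 hc a ha, mul_inv_cancel_right]
    ext y
    constructor
    · rintro ⟨a, ha, rfl⟩
      show c * a * c⁻¹ ∈ A
      rw [hfix a ha]; exact ha
    · intro hy
      exact ⟨y, hy, hfix y hy⟩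
  have h1 : (MulAut.conj c).toMonoidHom d ∈ (commOf A h).map (MulAut.conj c).toMonoidHom :=
    Subgroup.mem_map_of_mem _ hd
  rw [map_commOf, hA] at h1
  exact h1

/-- `C_H(A)` normalizes the join. -/
theorem le_normalizer_fixJoin (A H : Subgroup X) :
    H ⊓ Subgroup.centralizer (A : Set X) ≤ Subgroup.normalizer (fixJoin A H : Set X) := by
  rw [Subgroup.le_normalizer_iff]
  rintro c ⟨hcH, hcA⟩ x hx
  have hle : fixJoin A H ≤ (fixJoin A H).comap (MulAut.conj c).toMonoidHom := by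
    refine iSup_le fun h => ?_
    rintro d ⟨hd1, hd2⟩
    exact mem_fixJoin (mul_mem (mul_mem hcH h.2) (inv_mem hcH)) (conj_commOf hcA hd1)
      (mul_mem (mul_mem hcA hd2) (inv_mem hcA))
  exact hle hx

/-- The coprime odd situation with `[H, A] = H`, inside `X = H A`, with the statement known below. -/
structure Setup (p : ℕ) (A H : Subgroup X) : Prop where
  prime : p.Prime
  odd : p ≠ 2
  cardA : Nat.card A = p
  nrm : A ≤ Subgroup.normalizer (H : Set X)
  cop : (Nat.card A).Coprime (Nat.card H)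
  sol : Group.IsSolvable H
  gen : ⁅H, A⁆ = H
  top : H ⊔ A = ⊤
  ih : ∀ L : Subgroup X, L < H → A ≤ Subgroup.normalizer (L : Set X) →
    ⁅L, A⁆ ⊓ Subgroup.centralizer (A : Set X) ≤ fixJoin A H

variable [Finite X] {p : ℕ} {A H : Subgroup X}

/-- Fixed points lie in every invariant `N` with abelian quotient. -/
theorem fixed_le_of_commutator {A H : Subgroup X} (hnrm : A ≤ Subgroup.normalizer (H : Set X))
    (hcop : (Nat.card A).Coprime (Nat.card H)) (hgen : ⁅H, A⁆ = H) {N : Subgroup X} (hN : ⁅H, H⁆ ≤ N) (hNH : N ≤ H)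
    (_hAN : A ≤ Subgroup.normalizer (N : Set X)) : H ⊓ Subgroup.centralizer (A : Set X) ≤ N := by
  classical
  haveI : Fintype A := Fintype.ofFinite _
  set NH := N.subgroupOf H with hNHdef
  haveI : NH.Normal := ⟨fun n hn g => by
    have hc : ⁅(g : X), (n : X)⁆ ∈ N := hN (Subgroup.commutator_mem_commutator g.2 n.2)
    show (g : X) * n * (g : X)⁻¹ ∈ N
    rw [show (g : X) * n * (g : X)⁻¹ = ⁅(g : X), (n : X)⁆ * n by rw [commutatorElement_def]; group]
    exact mul_mem hc hn⟩
  letI : CommGroup (↥H ⧸ NH) :=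
    { (inferInstance : Group (↥H ⧸ NH)) with
      mul_comm := fun u v => by
        obtain ⟨u, rfl⟩ := QuotientGroup.mk_surjective u
        obtain ⟨v, rfl⟩ := QuotientGroup.mk_surjective v
        rw [← QuotientGroup.mk_mul, ← QuotientGroup.mk_mul, QuotientGroup.eq]
        show ((u : X) * v)⁻¹ * ((v : X) * u) ∈ N
        rw [show ((u : X) * v)⁻¹ * ((v : X) * u) = ⁅(v : X)⁻¹, (u : X)⁻¹⁆ by
          rw [commutatorElement_def]; group]
        exact hN (Subgroup.commutator_mem_commutator (inv_mem v.2) (inv_mem u.2)) }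
  let c : A → (↥H →* ↥H ⧸ NH) := fun b => (QuotientGroup.mk' NH).comp
    { toFun := fun h => ⟨b * h * (b : X)⁻¹, CoprimeAction.conj_mem hnrm b.2 h.2⟩
      map_one' := Subtype.ext (by simp)
      map_mul' := fun v w => Subtype.ext (by simp [mul_assoc]) }
  let f : ↥H →* ↥H ⧸ NH := ∏ b : A, c b
  have hf : ∀ v, f v = ∏ b : A, c b v := fun v => MonoidHom.finsetProd_apply _ _ _
  have hinv : ∀ (a : A) (v : ↥H), f ⟨a * v * (a : X)⁻¹, CoprimeAction.conj_mem hnrm a.2 v.2⟩ = f v := by
    intro a v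
    rw [hf, hf]
    refine Fintype.prod_equiv (Equiv.mulRight a) _ _ fun b => ?_
    exact congrArg (QuotientGroup.mk' NH) (Subtype.ext (by simp [mul_assoc]))
  have hker : ∀ h : X, ∀ hh : h ∈ H, f ⟨h, hh⟩ = 1 := by
    intro h hh
    have key : H ≤ f.ker.map H.subtype := by
      conv_lhs => rw [← hgen]
      rw [Subgroup.commutator_le]
      intro v hv a ha
      refine ⟨⟨v, hv⟩ * ⟨a * v * a⁻¹, CoprimeAction.conj_mem hnrm ha hv⟩⁻¹, ?_, ?_⟩
      · rw [SetLike.mem_coe, MonoidHom.mem_ker, map_mul, map_inv, hinv ⟨a, ha⟩ ⟨v, hv⟩, mul_inv_cancel]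
      · simp [commutatorElement_def, mul_assoc]
    obtain ⟨w, hw, e⟩ := key hh
    have : w = ⟨h, hh⟩ := Subtype.ext e
    exact this ▸ hw
  rintro x ⟨hxH, hxA⟩
  have h1 := hker x hxH
  have h2 : ∀ b : A, c b ⟨x, hxH⟩ = QuotientGroup.mk' NH ⟨x, hxH⟩ := fun b =>
    congrArg (QuotientGroup.mk' NH) (Subtype.ext (by
      show (b : X) * x * (b : X)⁻¹ = x
      rw [Subgroup.mem_centralizer_iff.1 hxA b b.2, mul_inv_cancel_right]))
  rw [hf, Finset.prod_congr rfl (fun a _ => h2 a), Finset.prod_const, Finset.card_univ,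
    ← Nat.card_eq_fintype_card] at h1
  have h3 : orderOf (QuotientGroup.mk' NH ⟨x, hxH⟩) = 1 :=
    Nat.eq_one_of_dvd_coprimes hcop (orderOf_dvd_of_pow_eq_one h1)
      ((orderOf_map_dvd _ _).trans (orderOf_dvd_natCard _))
  exact (QuotientGroup.eq_one_iff (⟨x, hxH⟩ : ↥H)).1 (orderOf_eq_one_iff.1 h3)

theorem normalizer_le_normalizer_char {N : Subgroup X} (W : Subgroup N) [W.Characteristic] :
    Subgroup.normalizer (N : Set X) ≤ Subgroup.normalizer ((W.map N.subtype : Subgroup X) : Set X) := by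
  rw [Subgroup.le_normalizer_iff]
  rintro g hg _ ⟨w, hw, rfl⟩
  exact ⟨N.normalizerMonoidHom ⟨g, hg⟩ w,
    (Subgroup.characteristic_iff_map_le.1 (inferInstance : W.Characteristic) _) ⟨w, hw, rfl⟩, rfl⟩

local notation "CA" => Subgroup.centralizer (A : Set X)

namespace Setup

variable (s : Setup p A H)
include s

theorem solA : Group.IsSolvable A := by
  haveI := Fact.mk s.prime
  haveI : IsCyclic A := isCyclic_of_prime_card s.cardA
  exact Group.isSolvable_of_comm IsCyclic.commGroup.mul_comm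

theorem copLE {L : Subgroup X} (h : L ≤ H) : (Nat.card A).Coprime (Nat.card L) :=
  s.cop.coprime_dvd_right (Subgroup.card_dvd_of_le h)

theorem normal_of {T : Subgroup X} (h1 : H ≤ Subgroup.normalizer (T : Set X))
    (h2 : A ≤ Subgroup.normalizer (T : Set X)) : T.Normal := by
  rw [← Subgroup.normalizer_eq_top_iff, eq_top_iff, ← s.top]
  exact sup_le h1 h2

theorem normalH : H.Normal := s.normal_of Subgroup.le_normalizer s.nrm

theorem gen_induction {motive : X → Prop} (hmem : ∀ h ∈ H, ∀ b ∈ A, motive ⁅h, b⁆) (one : motive 1)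
    (mul : ∀ u v, motive u → motive v → motive (u * v)) (inv : ∀ u, motive u → motive u⁻¹) :
    ∀ h ∈ H, motive h := by
  intro h hh
  rw [← s.gen, Subgroup.commutator_def] at hh
  induction hh using Subgroup.closure_induction with
  | mem y hy => obtain ⟨u, hu, a, ha, rfl⟩ := hy; exact hmem u hu a ha
  | one => exact one
  | mul u v _ _ hu hv => exact mul u v hu hv
  | inv u _ hu => exact inv u hu

/-- Fixed points lie in every invariant `N` with abelian quotient. -/
theorem fixed_le_of_commutator_le {N : Subgroup X} (hN : ⁅H, H⁆ ≤ N) (hNH : N ≤ H)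
    (hAN : A ≤ Subgroup.normalizer (N : Set X)) : H ⊓ CA ≤ N :=
  fixed_le_of_commutator s.nrm s.cop s.gen hN hNH hAN

/-- An element whose commutators with `A` lie in an invariant `L` is in `L C(A)`. -/
theorem exists_fixed_rep {L : Subgroup X} (hLH : L ≤ H) (hAL : A ≤ Subgroup.normalizer (L : Set X)) {h : X}
    (hfix : ∀ b ∈ A, b * h * b⁻¹ * h⁻¹ ∈ L) : ∃ n ∈ L, n * h ∈ CA :=
  exists_mem_centralizer hAL (s.copLE hLH) (Or.inl s.solA) hfix

/-- `h` generates `[h, A]` modulo fixed points. -/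
theorem exists_fixed_rep_commOf {L : Subgroup X} (hLH : L ≤ H) (hAL : A ≤ Subgroup.normalizer (L : Set X))
    {h : X} (hh : h ∈ H) (hle : commOf A h ≤ L) :
    ∃ n ∈ L, h * n ∈ CA := by
  obtain ⟨n, hn, hc⟩ := s.exists_fixed_rep hLH hAL (h := h⁻¹) fun b hb => by
    have := inv_mem (hle (Subgroup.subset_closure ⟨b, hb, rfl⟩))
    rw [commutatorElement_def] at this
    simpa [mul_assoc] using this
  exact ⟨n⁻¹, inv_mem hn, by simpa using inv_mem hc⟩

/-- The invariant part of `N` that is already known. -/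
theorem commutator_sup_le (N : Subgroup X) [N.Normal] : ⁅N, A⁆ ⊔ (fixJoin A H ⊓ N) ≤ N :=
  sup_le (commutator_le_of_normalizer (by rw [Subgroup.normalizer_eq_top]; exact le_top)) inf_le_right

theorem known_inf_centralizer {N : Subgroup X} [N.Normal]
    (h : ⁅N, A⁆ ⊓ CA ≤ fixJoin A H) :
    (⁅N, A⁆ ⊔ (fixJoin A H ⊓ N)) ⊓ CA ≤ fixJoin A H := by
  rintro x ⟨hx, hxA⟩
  have hn : fixJoin A H ⊓ N ≤ Subgroup.normalizer ((⁅N, A⁆ : Subgroup X) : Set X) :=
    inf_le_right.trans CoprimeAction.self_le_normalizer_commutator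
  have := Subgroup.coe_mul_of_right_le_normalizer_left ⁅N, A⁆ (fixJoin A H ⊓ N) hn
  have hx' : x ∈ ((⁅N, A⁆ ⊔ (fixJoin A H ⊓ N) : Subgroup X) : Set X) := hx
  rw [this] at hx'
  obtain ⟨n, hn', k, hk, rfl⟩ := Set.mem_mul.1 hx'
  refine mul_mem (h ⟨hn', ?_⟩) hk.1
  have := Subgroup.mul_mem _ hxA (Subgroup.inv_mem _ (fixJoin_le_centralizer A H hk.1))
  rw [mul_inv_cancel_right] at this
  exact this

theorem le_normalizer_known (N : Subgroup X) [N.Normal] :
    A ≤ Subgroup.normalizer ((⁅N, A⁆ ⊔ (fixJoin A H ⊓ N) : Subgroup X) : Set X) := by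
  have hAN : A ≤ Subgroup.normalizer (N : Set X) := by rw [Subgroup.normalizer_eq_top]; exact le_top
  rw [Subgroup.le_normalizer_iff]
  intro a ha x hx
  have hle : ⁅N, A⁆ ⊔ (fixJoin A H ⊓ N) ≤
      (⁅N, A⁆ ⊔ (fixJoin A H ⊓ N)).comap (MulAut.conj a).toMonoidHom := by
    refine sup_le (fun y hy => Subgroup.mem_sup_left ?_) fun y hy => ?_
    · exact CoprimeAction.conj_mem (CoprimeAction.le_normalizer_commutator hAN) ha hy
    · show a * y * a⁻¹ ∈ ⁅N, A⁆ ⊔ (fixJoin A H ⊓ N)
      rw [Subgroup.mem_centralizer_iff.1 (fixJoin_le_centralizer A H hy.1) a ha, mul_inv_cancel_right]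
      exact Subgroup.mem_sup_right hy
  exact hle hx

/-- A proper invariant subgroup normalizes the known part of `N`. -/
theorem step {N L : Subgroup X} [N.Normal] (hNH : N ≤ H) (hLH : L ≤ H)
    (hAL : A ≤ Subgroup.normalizer (L : Set X)) (hlt : N ⊔ L < H) :
    L ≤ Subgroup.normalizer ((⁅N, A⁆ ⊔ (fixJoin A H ⊓ N) : Subgroup X) : Set X) := by
  set T := N ⊔ L with hT
  set S := ⁅N, A⁆ ⊔ (fixJoin A H ⊓ N) with hS
  have hAN : A ≤ Subgroup.normalizer (N : Set X) := by rw [Subgroup.normalizer_eq_top]; exact le_top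
  have hAT : A ≤ Subgroup.normalizer (T : Set X) := by
    rw [Subgroup.le_normalizer_iff]
    intro a ha x hx
    have hle : T ≤ T.comap (MulAut.conj a).toMonoidHom :=
      sup_le (fun y hy => Subgroup.mem_sup_left (CoprimeAction.conj_mem hAN ha hy))
        (fun y hy => Subgroup.mem_sup_right (CoprimeAction.conj_mem hAL ha hy))
    exact hle hx
  have hsmall : ⁅T, A⁆ ⊓ N ≤ S := by
    intro t ht
    have hAi : A ≤ Subgroup.normalizer ((⁅T, A⁆ ⊓ N : Subgroup X) : Set X) :=
      (le_inf (CoprimeAction.le_normalizer_commutator hAT) hAN).trans Subgroup.inf_normalizer_le_normalizer_inf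
    obtain ⟨n, hn, c, hc, rfl⟩ := exists_commutator_mul_centralizer hAi
      (s.copLE (inf_le_right.trans hNH)) (Or.inl s.solA) ht
    exact mul_mem (Subgroup.mem_sup_left (Subgroup.commutator_mono inf_le_right le_rfl hn))
      (Subgroup.mem_sup_right ⟨s.ih T hlt hAT ⟨hc.1.1, hc.2⟩, hc.1.2⟩)
  rw [Subgroup.le_normalizer_iff]
  intro l hl x hx
  obtain ⟨n, hn, c, hc, rfl⟩ := exists_commutator_mul_centralizer hAL (s.copLE hLH) (Or.inl s.solA) hl
  have hxN : c * x * c⁻¹ ∈ S := by
    have hle : S ≤ S.comap (MulAut.conj c).toMonoidHom := by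
      refine sup_le ?_ fun y hy => ?_
      · rw [Subgroup.commutator_le]
        intro u hu a ha
        refine Subgroup.mem_sup_left ?_
        show MulAut.conj c ⁅u, a⁆ ∈ _
        rw [map_commutatorElement]
        refine Subgroup.commutator_mem_commutator ((inferInstance : N.Normal).conj_mem u hu c) ?_
        rw [MulAut.conj_apply, ← Subgroup.mem_centralizer_iff.1 hc.2 a ha, mul_inv_cancel_right]
        exact ha
      · exact Subgroup.mem_sup_right ⟨CoprimeAction.conj_mem (le_normalizer_fixJoin A H) ⟨hLH hc.1, hc.2⟩ hy.1,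
          (inferInstance : N.Normal).conj_mem y hy.2 c⟩
    exact hle hx
  rw [show n * c * x * (n * c)⁻¹ = ⁅n, c * x * c⁻¹⁆ * (c * x * c⁻¹) by rw [commutatorElement_def]; group]
  refine mul_mem (hsmall ⟨?_, ?_⟩) hxN
  · have hnT : n ∈ ⁅T, A⁆ := Subgroup.commutator_mono le_sup_right le_rfl hn
    rw [commutatorElement_def, mul_assoc, mul_assoc]
    refine mul_mem hnT ?_
    rw [← mul_assoc]
    exact CoprimeAction.conj_mem CoprimeAction.self_le_normalizer_commutator
      (Subgroup.mem_sup_left (s.commutator_sup_le N hxN)) (inv_mem hnT)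
  · show ⁅n, c * x * c⁻¹⁆ ∈ N
    rw [commutatorElement_def]
    exact mul_mem ((inferInstance : N.Normal).conj_mem _ (s.commutator_sup_le N hxN) n)
      (inv_mem (s.commutator_sup_le N hxN))

/-- A normal subgroup centralized by `A` is central in `H`. -/
theorem centralizes_of_fixed {N : Subgroup X} [N.Normal] (hN : N ≤ CA) :
    H ≤ Subgroup.centralizer (N : Set X) := by
  refine s.gen_induction ?_ (one_mem _) (fun _ _ => mul_mem) (fun _ => inv_mem)
  intro h hh b hb
  rw [Subgroup.mem_centralizer_iff]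
  intro n hn
  have h1 := Subgroup.mem_centralizer_iff.1 (hN hn) b hb
  have hn' : h⁻¹ * n * h ∈ N := by simpa using (inferInstance : N.Normal).conj_mem n hn h⁻¹
  have h2 := Subgroup.mem_centralizer_iff.1 (hN hn') b hb
  symm
  rw [commutatorElement_def]
  calc h * b * h⁻¹ * b⁻¹ * n = h * b * h⁻¹ * n * b⁻¹ := by
        rw [mul_assoc (h * b * h⁻¹), mul_assoc (h * b * h⁻¹) n]
        congr 1
        rw [inv_mul_eq_iff_eq_mul, ← mul_assoc, h1, mul_inv_cancel_right]
    _ = h * (b * (h⁻¹ * n * h)) * h⁻¹ * b⁻¹ := by group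
    _ = n * (h * b * h⁻¹ * b⁻¹) := by rw [h2]; group

end Setup

end CfsgLib.CommFixed
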