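import Cfsg.Agent.CommFixed.PGroupCase
import Cfsg.Agent.CoprimeAction.Conjugacy

/-!
The case `H = M R` with `M` minimal normal and `R` an invariant Sylow subgroup: fixed space of a conjugate
of `A` cannot be a half of `M`.
-/

set_option autoImplicit false
set_option linter.unusedSectionVars false
set_option maxHeartbeats 1000000

namespace CfsgLib.CommFixed

open scoped commutatorElement Pointwise
open CoprimeAction (exists_commutator_mul_centralizer conj_mem commutator_le_of_normalizer)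

variable {X : Type*} [Group X] [Finite X]

local notation "CC" => fun (A : Subgroup X) => Subgroup.centralizer (A : Set X)

/-- Conjugation by `g` on a normal subgroup. -/
def conjOn (M : Subgroup X) [M.Normal] (g : X) : ↥M →* ↥M where
  toFun m := ⟨g * m * g⁻¹, (inferInstance : M.Normal).conj_mem _ m.2 g⟩
  map_one' := Subtype.ext (by simp)
  map_mul' m n := Subtype.ext (by simp [mul_assoc])

theorem conjOn_val (M : Subgroup X) [M.Normal] (g : X) (m : ↥M) : (conjOn M g m : X) = g * m * g⁻¹ := rfl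

theorem conjOn_comp (M : Subgroup X) [M.Normal] (g g' : X) (m : ↥M) :
    conjOn M g (conjOn M g' m) = conjOn M (g * g') m :=
  Subtype.ext (by simp [conjOn_val, mul_assoc])

/-- Three translates of the fixed points, when the moved elements act without fixed points. -/
theorem three_translates {M : Subgroup X} [M.Normal] (hM : ∀ u ∈ M, ∀ v ∈ M, u * v = v * u)
    {a e f g : X} (hf : a * e * a⁻¹ = f) (hg : a * f * a⁻¹ = g)
    (hcom : ∀ x ∈ [(e, f), (f, g), (e, g)], ∀ m ∈ M, (x.1 * x.2) * m * (x.1 * x.2)⁻¹ = (x.2 * x.1) * m * (x.2 * x.1)⁻¹)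
    (hfree : ∀ x ∈ [(e, f), (f, g), (e, g)], ∀ m ∈ M, x.1 * m * x.1⁻¹ = x.2 * m * x.2⁻¹ → m = 1)
    (C : Subgroup X) (hCM : C ≤ M) (hC : ∀ c ∈ C, a * c * a⁻¹ = c) :
    Nat.card C ^ 3 ≤ Nat.card M := by
  classical
  letI : CommGroup ↥M := { (inferInstance : Group ↥M) with
    mul_comm := fun u v => Subtype.ext (hM u u.2 v v.2) }
  let α : X → (↥M →* ↥M) := conjOn M
  let ι : ↥C →* ↥M := Subgroup.inclusion hCM
  let ψ : ↥C × ↥C × ↥C →* ↥M :=
    { toFun := fun c => ι c.1 * α e (ι c.2.1) * α e (α e (ι c.2.2))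
      map_one' := by simp
      map_mul' := fun c d => by
        simp only [Prod.fst_mul, Prod.snd_mul, map_mul]
        ac_rfl }
  have hinj : Function.Injective ψ := by
    rw [injective_iff_map_eq_one]
    rintro ⟨c0, c1, c2⟩ h
    have hφ : ∀ (c : ↥C) (x : X), α a (α x (ι c)) = α (a * x * a⁻¹) (ι c) := fun c x => by
      have := hC c c.2
      refine Subtype.ext ?_
      simp only [α, conjOn_val, ι, Subgroup.coe_inclusion]
      conv_lhs => rw [show (c : X) = a⁻¹ * (a * (c : X) * a⁻¹) * a by group, this]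
      group
    have hfix : ∀ c : ↥C, α a (ι c) = ι c := fun c => Subtype.ext (hC c c.2)
    have hφ2 : ∀ (c : ↥C) (x : X), α a (α x (α x (ι c))) = α (a * x * a⁻¹) (α (a * x * a⁻¹) (ι c)) :=
      fun c x => by
        simp only [α, conjOn_comp]
        have h1 := hφ c (x * x)
        simp only [α, conjOn_comp] at h1
        rw [show a * x * a⁻¹ * (a * x * a⁻¹) = a * (x * x) * a⁻¹ by group]
        simpa [mul_assoc] using h1
    have E0 : ι c0 * α e (ι c1) * α e (α e (ι c2)) = 1 := h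
    have E1 : ι c0 * α f (ι c1) * α f (α f (ι c2)) = 1 := by
      have := congrArg (α a) E0
      rwa [map_mul, map_mul, map_one, hfix, hφ, hφ2, hf] at this
    have hswap : ∀ m : ↥M, α e (α f m) = α f (α e m) := fun m => by
      rw [conjOn_comp, conjOn_comp]; exact Subtype.ext (hcom (e, f) (by simp) m m.2)
    have hw : ι c1 * α e (ι c2) * α f (ι c2) = 1 := by
      refine Subtype.ext (hfree (e, f) (by simp) _ (ι c1 * α e (ι c2) * α f (ι c2)).2 ?_)
      have h01 : α e (ι c1) * α e (α e (ι c2)) = α f (ι c1) * α f (α f (ι c2)) := by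
        rw [mul_assoc] at E0 E1
        exact mul_left_cancel (E0.trans E1.symm)
      refine congrArg Subtype.val (?_ : α e (ι c1 * α e (ι c2) * α f (ι c2)) = α f (ι c1 * α e (ι c2) * α f (ι c2)))
      rw [map_mul, map_mul, map_mul, map_mul, h01, ← hswap, mul_assoc, mul_comm (α f (α f (ι c2))), ← mul_assoc]
    have hw' : ι c1 * α f (ι c2) * α g (ι c2) = 1 := by
      have := congrArg (α a) hw
      rwa [map_mul, map_mul, map_one, hfix, hφ, hφ, hf, hg] at this
    have h2 : ι c2 = 1 := by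
      refine Subtype.ext (hfree (e, g) (by simp) _ (ι c2).2 ?_)
      refine congrArg Subtype.val (?_ : α e (ι c2) = α g (ι c2))
      rw [mul_assoc, mul_comm (α e (ι c2)), ← mul_assoc] at hw
      exact mul_left_cancel (hw.trans hw'.symm)
    have h1 : ι c1 = 1 := by rw [h2, map_one, map_one, mul_one, mul_one] at hw; exact hw
    have h0 : ι c0 = 1 := by rw [h2, h1, map_one, map_one, mul_one, mul_one] at E0; exact E0
    have hι : Function.Injective ι := Subgroup.inclusion_injective hCM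
    exact Prod.ext (hι (h0.trans (map_one ι).symm))
      (Prod.ext (hι (h1.trans (map_one ι).symm)) (hι (h2.trans (map_one ι).symm)))
  have := Nat.card_le_card_of_injective ψ hinj
  rw [Nat.card_prod, Nat.card_prod] at this
  rw [pow_succ, pow_two, mul_assoc]
  exact this

variable {p r : ℕ} {A H : Subgroup X}

local notation "CA" => Subgroup.centralizer (A : Set X)

theorem Setup.normal_inf_centralizer_le {M : Subgroup X} [M.Normal] (s : Setup p A H) (hMH : M ≤ H)
    (hMab : ∀ u ∈ M, ∀ v ∈ M, u * v = v * u) : ⁅M, A⁆ ⊓ CA = ⊥ := by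
  have hAM : A ≤ Subgroup.normalizer (M : Set X) := by rw [Subgroup.normalizer_eq_top]; exact le_top
  haveI : IsMulCommutative M := ⟨⟨fun u v => Subtype.ext (hMab u u.2 v v.2)⟩⟩
  have h := CoprimeAction.centralizer_inf_commutator_eq_bot hAM (s.copLE hMH)
  rw [eq_bot_iff]
  rintro x ⟨hx, hxA⟩
  exact h.le ⟨⟨commutator_le_of_normalizer hAM hx, hxA⟩, hx⟩

/-- The complement case. -/
theorem Setup.complement_case (s : Setup p A H) {M R : Subgroup X} [M.Normal]
    (hMne : M ≠ ⊥) (hMH : M ≤ H) (hMab : ∀ u ∈ M, ∀ v ∈ M, u * v = v * u)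
    (hmin : ∀ T : Subgroup X, T.Normal → T ≤ M → T = ⊥ ∨ T = M)
    (hMA : ⁅M, A⁆ ≠ ⊥) (hr : r.Prime) (hRp : IsPGroup r R) (hRH : R ≤ H)
    (hAR : A ≤ Subgroup.normalizer (R : Set X)) (hdisj : M ⊓ R = ⊥) (hsup : M ⊔ R = H)
    (hMr : (Nat.card M).Coprime (Nat.card R))
    (hconj : ∀ L : Subgroup X, L ≤ H → A ≤ Subgroup.normalizer (L : Set X) → M ⊓ L = ⊥ → M ⊔ L = H →
      ∃ c ∈ M ⊓ CA, R.map (MulAut.conj c).toMonoidHom = L) :
    M ⊓ CA ≤ fixJoin A H := by
  classical
  haveI := Fact.mk hr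
  haveI := Fact.mk s.prime
  haveI hHn : H.Normal := s.normalH
  have hAn : ∀ T : Subgroup X, T.Normal → A ≤ Subgroup.normalizer (T : Set X) := fun T hT => by
    rw [Subgroup.normalizer_eq_top]; exact le_top
  have hAM := hAn M inferInstance
  have hMid : ∀ u ∈ M, ∀ v ∈ M, u * v * u⁻¹ = v := fun u hu v hv => by
    rw [hMab u hu v hv, mul_inv_cancel_right]
  have hMn : ∀ L : Subgroup X, L ≤ M → M ≤ Subgroup.normalizer (L : Set X) := by
    intro L hL
    rw [Subgroup.le_normalizer_iff]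
    intro u hu v hv
    rw [hMid u hu v (hL hv)]; exact hv
  have hdec : ∀ x ∈ H, ∃ m ∈ M, ∃ t ∈ R, x = m * t := by
    intro x hx
    have hn : R ≤ Subgroup.normalizer (M : Set X) := by rw [Subgroup.normalizer_eq_top]; exact le_top
    have := Subgroup.coe_mul_of_right_le_normalizer_left M R hn
    rw [← hsup, ← SetLike.mem_coe, this] at hx
    obtain ⟨m, hm, t, ht, rfl⟩ := Set.mem_mul.1 hx
    exact ⟨m, hm, t, ht, rfl⟩
  have hnM : ∀ T : Subgroup X, T ≤ M → R ≤ Subgroup.normalizer (T : Set X) →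
      A ≤ Subgroup.normalizer (T : Set X) → T.Normal := fun T h1 h2 h3 =>
    s.normal_of (hsup ▸ sup_le (hMn T h1) h2) h3
  have hMA0 := s.normal_inf_centralizer_le hMH hMab
  set C := M ⊓ CA with hC
  set S := ⁅M, A⁆ ⊔ (fixJoin A H ⊓ M) with hS
  have hSM : S ≤ M := s.commutator_sup_le M
  have hSne : S ≠ ⊥ := fun h => hMA (le_bot_iff.1 (le_sup_left.trans h.le))
  have hfinish : R ≤ Subgroup.normalizer (S : Set X) → C ≤ fixJoin A H := by
    intro h
    have hSn := hnM S hSM h (s.le_normalizer_known M)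
    intro c hc
    have := ((hmin S hSn hSM).resolve_left hSne).ge hc.1
    exact s.known_inf_centralizer (hMA0.le.trans bot_le) ⟨this, hc.2⟩
  rcases eq_or_ne R ⊥ with h | hRne
  · exact hfinish (h ▸ bot_le)
  haveI : Fintype A := Fintype.ofFinite _
  -- `[R, A] = R`
  have hRAle : ⁅R, A⁆ ≤ R := commutator_le_of_normalizer hAR
  have hRA : ⁅R, A⁆ = R := by
    set U := M ⊔ ⁅R, A⁆ with hU
    have hUn : U.Normal := by
      have key : ∀ B : Subgroup X, B ≤ Subgroup.normalizer ((⁅R, A⁆ : Subgroup X) : Set X) →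
          B ≤ Subgroup.normalizer (U : Set X) := fun B hB => by
        rw [Subgroup.le_normalizer_iff]
        intro g hg x hx
        have hle : U ≤ U.comap (MulAut.conj g).toMonoidHom := sup_le
          (fun y hy => Subgroup.mem_sup_left ((inferInstance : M.Normal).conj_mem y hy g))
          (fun y hy => Subgroup.mem_sup_right (conj_mem hB hg hy))
        exact hle hx
      exact s.normal_of (hsup ▸ sup_le (le_sup_left.trans (Subgroup.le_normalizer (H := U)))
        (key R CoprimeAction.self_le_normalizer_commutator))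
        (key A (CoprimeAction.le_normalizer_commutator hAR))
    have hHU : H ≤ U := by
      conv_lhs => rw [← s.gen]
      rw [Subgroup.commutator_le]
      intro x hx b hb
      obtain ⟨m, hm, t, ht, rfl⟩ := hdec x hx
      rw [show ⁅m * t, b⁆ = m * ⁅t, b⁆ * m⁻¹ * ⁅m, b⁆ by simp only [commutatorElement_def]; group]
      exact mul_mem (hUn.conj_mem _ (Subgroup.mem_sup_right (Subgroup.commutator_mem_commutator ht hb)) m)
        (Subgroup.mem_sup_left (commutator_le_of_normalizer hAM (Subgroup.commutator_mem_commutator hm hb)))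
    refine le_antisymm hRAle fun t ht => ?_
    have hn : ⁅R, A⁆ ≤ Subgroup.normalizer (M : Set X) := by rw [Subgroup.normalizer_eq_top]; exact le_top
    have := Subgroup.coe_mul_of_right_le_normalizer_left M ⁅R, A⁆ hn
    have hx : t ∈ ((M ⊔ ⁅R, A⁆ : Subgroup X) : Set X) := hHU (hRH ht)
    rw [this] at hx
    obtain ⟨m, hm, t', ht', e⟩ := Set.mem_mul.1 hx
    have hm1 : m ∈ M ⊓ R := ⟨hm, by
      have : m = t * t'⁻¹ := by rw [← e]; group
      rw [this]; exact R.mul_mem ht (R.inv_mem (hRAle ht'))⟩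
    rw [hdisj, Subgroup.mem_bot] at hm1
    rw [← e, hm1, one_mul]; exact ht'
  set Φ : Subgroup X := (frattini ↥R).map R.subtype with hΦ
  have hΦR : Φ ≤ R := Subgroup.map_subtype_le _
  have hder : ⁅R, R⁆ ≤ Φ := by
    refine Subgroup.commutator_le.2 fun u hu v hv => ?_
    exact ⟨⁅(⟨u, hu⟩ : ↥R), ⟨v, hv⟩⁆, CoprimeAction.commutator_le_frattini' hRp
      (Subgroup.commutator_mem_commutator (Subgroup.mem_top _) (Subgroup.mem_top _)), rfl⟩
  have hAΦ : A ≤ Subgroup.normalizer (Φ : Set X) := hAR.trans (normalizer_le_normalizer_char _)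
  have hRΦ : R ≤ Subgroup.normalizer (Φ : Set X) := Subgroup.le_normalizer.trans (normalizer_le_normalizer_char _)
  have hCΦ : R ⊓ CA ≤ Φ := fixed_le_of_commutator hAR (s.copLE hRH) hRA hder hΦR hAΦ
  have hΦne : Φ ≠ R := by
    intro h
    have hΦtop : frattini ↥R = ⊤ := by
      rw [eq_top_iff]
      intro x _
      obtain ⟨y, hy, e⟩ := h.ge x.2
      rwa [← Subtype.ext e]
    have : (⊥ : Subgroup ↥R) = ⊤ := frattini_nongenerating (K := (⊥ : Subgroup ↥R)) (by rw [hΦtop, bot_sup_eq])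
    exact hRne (le_bot_iff.1 fun x hx => by
      have := this.ge (Subgroup.mem_top ⟨x, hx⟩)
      rw [Subgroup.mem_bot] at this ⊢
      exact congrArg Subtype.val this)
  have hlift : ∀ L : Subgroup X, L ≤ R → L ≠ R → M ⊔ L < H := by
    intro L hLR hne
    refine lt_of_le_of_ne (sup_le hMH (hLR.trans hRH)) fun e => hne (le_antisymm hLR fun t ht => ?_)
    have hn : L ≤ Subgroup.normalizer (M : Set X) := by rw [Subgroup.normalizer_eq_top]; exact le_top
    have := Subgroup.coe_mul_of_right_le_normalizer_left M L hn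
    have hx : t ∈ ((M ⊔ L : Subgroup X) : Set X) := e.ge (hRH ht)
    rw [this] at hx
    obtain ⟨m, hm, t', ht', e'⟩ := Set.mem_mul.1 hx
    have hm1 : m ∈ M ⊓ R := ⟨hm, by
      have : m = t * t'⁻¹ := by rw [← e']; group
      rw [this]; exact R.mul_mem ht (R.inv_mem (hLR ht'))⟩
    rw [hdisj, Subgroup.mem_bot] at hm1
    rw [← e', hm1, one_mul]; exact ht'
  have hΦlift : ∀ L : Subgroup X, Φ ≤ L → L ≤ R → R ≤ Subgroup.normalizer (L : Set X) := by
    intro L h1 h2
    rw [Subgroup.le_normalizer_iff]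
    intro g hg x hx
    rw [show g * x * g⁻¹ = ⁅g, x⁆ * x by rw [commutatorElement_def]; group]
    exact L.mul_mem (h1 (hder (Subgroup.commutator_mem_commutator hg (h2 hx)))) hx
  have hjoin : ∀ D : Subgroup X, A ≤ Subgroup.normalizer (D : Set X) →
      A ≤ Subgroup.normalizer ((Φ ⊔ D : Subgroup X) : Set X) := by
    intro D hD
    rw [Subgroup.le_normalizer_iff]
    intro a ha x hx
    have hle : Φ ⊔ D ≤ (Φ ⊔ D).comap (MulAut.conj a).toMonoidHom := sup_le
      (fun y hy => Subgroup.mem_sup_left (conj_mem hAΦ ha hy))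
      (fun y hy => Subgroup.mem_sup_right (conj_mem hD ha hy))
    exact hle hx
  by_cases hall : ∀ h ∈ R, commOf A h ≠ R
  · refine hfinish fun h hh => ?_
    set L := Φ ⊔ commOf A h with hL
    have hDR : commOf A h ≤ R := (commOf_le hh).trans_eq hRA
    have hLR : L ≤ R := sup_le hΦR hDR
    have hAL := hjoin _ (le_normalizer_commOf A h)
    have hLne : L ≠ R := by
      intro e
      refine hall h hh ?_
      have ht : (commOf A h).subgroupOf R ⊔ frattini ↥R = ⊤ := by
        refine Subgroup.map_injective R.subtype_injective ?_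
        rw [Subgroup.map_sup, Subgroup.map_subgroupOf_eq_of_le hDR, ← MonoidHom.range_eq_map,
          Subgroup.range_subtype, sup_comm]
        exact e
      have := frattini_nongenerating ht
      exact le_antisymm hDR fun x hx => this.ge (Subgroup.mem_top ⟨x, hx⟩)
    obtain ⟨n, hn, hc⟩ := s.exists_fixed_rep_commOf (hLR.trans hRH) hAL (hRH hh) le_sup_right
    have hhL : h ∈ L := by
      have := mul_mem (Subgroup.mem_sup_left (hCΦ ⟨mul_mem hh (hLR hn), hc⟩)) (inv_mem hn)
      rwa [mul_inv_cancel_right] at this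
    exact s.step hMH (hLR.trans hRH) hAL (hlift L hLR hLne) hhL
  push Not at hall
  obtain ⟨h₀, hh₀, hD₀⟩ := hall
  have hΓ : R ⊓ CA ≤ fixJoin A H := fun c hc => mem_fixJoin (hRH hh₀) (hD₀.symm ▸ hc.1) hc.2
  by_cases hbig : ∃ m ∈ M, M ⊓ commOf A (h₀ * m) ≠ ⊥
  · obtain ⟨m, hm, hne⟩ := hbig
    have hx : h₀ * m ∈ H := mul_mem (hRH hh₀) (hMH hm)
    set L := commOf A (h₀ * m) with hL
    have hLH : L ≤ H := (commOf_le hx).trans_eq s.gen
    have hML : M ⊔ L = H := by
      refine le_antisymm (sup_le hMH hLH) ?_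
      rw [← hsup]
      refine sup_le le_sup_left ?_
      set π := QuotientGroup.mk' M
      have e1 : L.map π = R.map π := by
        rw [← hD₀, hL, map_commOf, map_commOf, map_mul, show π m = 1 from (QuotientGroup.eq_one_iff m).2 hm,
          mul_one]
      intro t ht
      obtain ⟨l, hl, e⟩ := e1.ge (Subgroup.mem_map_of_mem π ht)
      have : l⁻¹ * t ∈ M := (QuotientGroup.eq).1 e
      rw [show t = l * (l⁻¹ * t) by group]
      exact mul_mem (Subgroup.mem_sup_right hl) (Subgroup.mem_sup_left this)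
    have hn : (M ⊓ L).Normal := by
      refine s.normal_of ?_ ?_
      · rw [← hML]
        refine sup_le (hMn _ inf_le_left) ?_
        refine (le_inf ?_ Subgroup.le_normalizer).trans Subgroup.inf_normalizer_le_normalizer_inf
        rw [Subgroup.normalizer_eq_top]; exact le_top
      · exact (le_inf hAM (le_normalizer_commOf A _)).trans Subgroup.inf_normalizer_le_normalizer_inf
    intro c hc
    exact mem_fixJoin hx (((hmin _ hn inf_le_left).resolve_left hne).ge hc.1).2 hc.2
  push Not at hbig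
  -- every element of `M` is a product of two fixed translates
  have hprod : ∀ m ∈ M, ∃ c ∈ C, ∃ d ∈ C, h₀ * m * h₀⁻¹ = c * (h₀ * d * h₀⁻¹) := by
    intro m hm
    have hx : h₀ * m ∈ H := mul_mem (hRH hh₀) (hMH hm)
    set L := commOf A (h₀ * m) with hL
    have hLH : L ≤ H := (commOf_le hx).trans_eq s.gen
    have hML : M ⊔ L = H := by
      refine le_antisymm (sup_le hMH hLH) ?_
      rw [← hsup]
      refine sup_le le_sup_left ?_
      set π := QuotientGroup.mk' M
      have e1 : L.map π = R.map π := by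
        rw [← hD₀, hL, map_commOf, map_commOf, map_mul, show π m = 1 from (QuotientGroup.eq_one_iff m).2 hm,
          mul_one]
      intro t ht
      obtain ⟨l, hl, e⟩ := e1.ge (Subgroup.mem_map_of_mem π ht)
      have : l⁻¹ * t ∈ M := (QuotientGroup.eq).1 e
      rw [show t = l * (l⁻¹ * t) by group]
      exact mul_mem (Subgroup.mem_sup_right hl) (Subgroup.mem_sup_left this)
    obtain ⟨c, hc, hcL⟩ := hconj L hLH (le_normalizer_commOf A _) (hbig m hm) hML
    set h' := c * h₀ * c⁻¹ with hh'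
    have hh'L : h' ∈ L := hcL.le ⟨h₀, hh₀, rfl⟩
    set m' := h'⁻¹ * (h₀ * m) with hm'
    have hm'M : m' ∈ M := by
      have e : m' = c * ((h₀⁻¹ * c⁻¹ * h₀⁻¹⁻¹)) * m := by rw [hm', hh']; group
      rw [e]
      exact mul_mem (mul_mem hc.1 ((inferInstance : M.Normal).conj_mem _ (inv_mem hc.1) _)) hm
    set z := h' * m' * h'⁻¹ with hz
    have hzC : z ∈ C := by
      refine ⟨(inferInstance : M.Normal).conj_mem _ hm'M h', Subgroup.mem_centralizer_iff.2 fun b hb => ?_⟩
      set x := h₀ * m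
      set a' := h'⁻¹ * b * h' * b⁻¹ with ha'
      have ha'L : a' ∈ L := by
        have h1 := conj_mem (le_normalizer_commOf A (h₀ * m)) hb hh'L
        have := L.mul_mem (L.inv_mem hh'L) h1
        rwa [show h'⁻¹ * (b * h' * b⁻¹) = a' by rw [ha']; group] at this
      have haL : x⁻¹ * b * x * b⁻¹ ∈ L := Subgroup.subset_closure ⟨b, hb, by
        rw [commutatorElement_def, inv_inv]⟩
      have e : x⁻¹ * b * x * b⁻¹ * a'⁻¹ = m'⁻¹ * (a' * (b * m' * b⁻¹) * a'⁻¹) := by
        rw [ha', hm']; group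
      have hmem : m'⁻¹ * (a' * (b * m' * b⁻¹) * a'⁻¹) ∈ M ⊓ L := ⟨M.mul_mem (M.inv_mem hm'M)
        ((inferInstance : M.Normal).conj_mem _ ((inferInstance : M.Normal).conj_mem _ hm'M b) a'),
        e ▸ L.mul_mem haL (L.inv_mem ha'L)⟩
      rw [hbig m hm, Subgroup.mem_bot, inv_mul_eq_one] at hmem
      have e2 : a' * (b * m' * b⁻¹) * a'⁻¹ = h'⁻¹ * b * (h' * m' * h'⁻¹) * b⁻¹ * h' := by rw [ha']; group
      rw [← hmem] at e2
      rw [hz]
      calc b * (h' * m' * h'⁻¹) = h' * (h'⁻¹ * b * (h' * m' * h'⁻¹) * b⁻¹ * h') * h'⁻¹ * b := by group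
        _ = h' * m' * h'⁻¹ * b := by rw [← e2]
    refine ⟨z * c, mul_mem hzC hc, c⁻¹, inv_mem hc, ?_⟩
    rw [hz, hm', hh']; group
  have hCM : C ≤ M := inf_le_left
  have hle2 : Nat.card M ≤ Nat.card C ^ 2 := by
    rw [pow_two, ← Nat.card_prod]
    refine Nat.card_le_card_of_surjective
      (fun r : ↥C × ↥C => (⟨h₀⁻¹ * ((r.1 : X) * (h₀ * r.2 * h₀⁻¹)) * h₀⁻¹⁻¹,
        (inferInstance : M.Normal).conj_mem _ (mul_mem (hCM r.1.2)
          ((inferInstance : M.Normal).conj_mem _ (hCM r.2.2) h₀)) h₀⁻¹⟩ : ↥M)) ?_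
    rintro ⟨m, hm⟩
    obtain ⟨c, hc, d, hd, e⟩ := hprod m hm
    exact ⟨(⟨c, hc⟩, ⟨d, hd⟩), Subtype.ext (by show h₀⁻¹ * (c * (h₀ * d * h₀⁻¹)) * h₀⁻¹⁻¹ = m; rw [← e]; group)⟩
  -- a maximal invariant subgroup `L` of `R`
  obtain ⟨L, ⟨hΦL, hLR, hLne, hAL⟩, hLmax⟩ := (Set.toFinite
    {L : Subgroup X | Φ ≤ L ∧ L ≤ R ∧ L ≠ R ∧ A ≤ Subgroup.normalizer (L : Set X)}).exists_maximal
    ⟨Φ, le_rfl, hΦR, hΦne, hAΦ⟩
  have hRL : R ≤ Subgroup.normalizer (L : Set X) := hΦlift L hΦL hLR
  have hLirr : ∀ N : Subgroup X, L ≤ N → N ≤ R → A ≤ Subgroup.normalizer (N : Set X) → N = L ∨ N = R := by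
    intro N h1 h2 h3
    by_cases hN : N = R
    · exact Or.inr hN
    · exact Or.inl (le_antisymm (hLmax ⟨hΦL.trans h1, h2, hN, h3⟩ h1) h1)
  have hLS : L ≤ Subgroup.normalizer (S : Set X) := s.step hMH (hLR.trans hRH) hAL (hlift L hLR hLne)
  have hMS : M ≤ Subgroup.normalizer (S : Set X) := hMn S hSM
  have hmodS : ∀ m ∈ M, ∃ c ∈ C, ∃ u ∈ S, m = u * c := by
    intro m hm
    obtain ⟨n, hn, c, hc, rfl⟩ := exists_commutator_mul_centralizer hAM (s.copLE hMH) (Or.inl s.solA) hm
    exact ⟨c, hc, n, Subgroup.mem_sup_left hn, rfl⟩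
  have hMLS : ∀ l ∈ L, ∀ c ∈ C, ⁅c, l⁆ ∈ S := by
    intro l hl
    obtain ⟨n, hn, γ, hγ, rfl⟩ := exists_commutator_mul_centralizer hAL (s.copLE (hLR.trans hRH))
      (Or.inl s.solA) hl
    let W : Subgroup X :=
      { carrier := {l | l ∈ L ∧ ∀ c ∈ C, ⁅c, l⁆ ∈ S}
        one_mem' := ⟨one_mem _, fun c _ => by simp⟩
        mul_mem' := by
          rintro u v ⟨hu, hu'⟩ ⟨hv, hv'⟩
          refine ⟨mul_mem hu hv, fun c hc => ?_⟩
          rw [show ⁅c, u * v⁆ = ⁅c, u⁆ * (u * ⁅c, v⁆ * u⁻¹) by simp only [commutatorElement_def]; group]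
          exact mul_mem (hu' c hc) (conj_mem hLS hu (hv' c hc))
        inv_mem' := by
          rintro u ⟨hu, hu'⟩
          refine ⟨inv_mem hu, fun c hc => ?_⟩
          rw [show ⁅c, u⁻¹⁆ = u⁻¹ * ⁅c, u⁆⁻¹ * u⁻¹⁻¹ by simp only [commutatorElement_def]; group]
          exact conj_mem hLS (inv_mem hu) (inv_mem (hu' c hc)) }
    have hγW : γ ∈ W := by
      refine ⟨hγ.1, fun c hc => Subgroup.mem_sup_right ⟨?_, ?_⟩⟩
      · have hγK : γ ∈ fixJoin A H := hΓ ⟨hLR hγ.1, hγ.2⟩
        rw [commutatorElement_def]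
        exact (fixJoin A H).mul_mem (conj_mem (le_normalizer_fixJoin A H) ⟨hMH hc.1, hc.2⟩ hγK) ((fixJoin A H).inv_mem hγK)
      · rw [commutatorElement_def, mul_assoc, mul_assoc]
        refine mul_mem hc.1 ?_
        rw [← mul_assoc]
        exact (inferInstance : M.Normal).conj_mem _ (inv_mem hc.1) γ
    have hgenW : ⁅L, A⁆ ≤ W := by
      rw [Subgroup.commutator_le]
      intro x hx b hb
      refine ⟨commutator_le_of_normalizer hAL (Subgroup.commutator_mem_commutator hx hb), fun c hc => ?_⟩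
      have hxL : x⁻¹ ∈ L := inv_mem hx
      set c' := x⁻¹ * c * x⁻¹⁻¹ with hc'
      have hc'M : c' ∈ M := (inferInstance : M.Normal).conj_mem _ hc.1 _
      have hd : ⁅c', b⁆ ∈ S := Subgroup.mem_sup_left (Subgroup.commutator_mem_commutator hc'M hb)
      have hbc := Subgroup.mem_centralizer_iff.1 hc.2 b⁻¹ (inv_mem hb)
      have e1 : ⁅x, b⁆ * c⁻¹ * ⁅x, b⁆⁻¹ = x * (b * c'⁻¹ * b⁻¹) * x⁻¹ := by
        calc ⁅x, b⁆ * c⁻¹ * ⁅x, b⁆⁻¹ = x * b * x⁻¹ * (b⁻¹ * c⁻¹ * b) * x * b⁻¹ * x⁻¹ := by
              rw [commutatorElement_def]; group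
          _ = x * b * x⁻¹ * c⁻¹ * x * b⁻¹ * x⁻¹ := by
              have : b⁻¹ * c⁻¹ * b = c⁻¹ := by
                rw [← inv_inj]
                simp only [mul_inv_rev, inv_inv, ← mul_assoc]
                rw [hbc]; group
              rw [this]
          _ = x * (b * c'⁻¹ * b⁻¹) * x⁻¹ := by rw [hc']; group
      have e2 : ⁅c, ⁅x, b⁆⁆ = c * (⁅x, b⁆ * c⁻¹ * ⁅x, b⁆⁻¹) := by
        rw [commutatorElement_def c]; group
      rw [e2, e1, show c * (x * (b * c'⁻¹ * b⁻¹) * x⁻¹) = x * ⁅c', b⁆ * x⁻¹ by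
        rw [commutatorElement_def, hc']; group]
      exact conj_mem hLS hx hd
    exact (W.mul_mem (hgenW hn) hγW).2
  have hMLS' : ⁅M, L⁆ ≤ S := by
    rw [Subgroup.commutator_le]
    intro m hm l hl
    obtain ⟨c, hc, u, hu, rfl⟩ := hmodS m hm
    rw [show ⁅u * c, l⁆ = u * ⁅c, l⁆ * (l * u⁻¹ * l⁻¹) by simp only [commutatorElement_def]; group]
    exact mul_mem (mul_mem hu (hMLS l hl c hc)) (conj_mem hLS hl (inv_mem hu))
  set U := M ⊓ Subgroup.centralizer (L : Set X) with hU
  have hUn : U.Normal := by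
    have key : ∀ B : Subgroup X, B ≤ Subgroup.normalizer (L : Set X) → B ≤ Subgroup.normalizer (U : Set X) := by
      intro B hB
      rw [Subgroup.le_normalizer_iff]
      rintro g hg u ⟨huM, huL⟩
      refine ⟨(inferInstance : M.Normal).conj_mem u huM g, Subgroup.mem_centralizer_iff.2 fun l hl => ?_⟩
      have hl' := conj_mem hB (inv_mem hg) hl
      calc l * (g * u * g⁻¹) = g * (g⁻¹ * l * g⁻¹⁻¹ * u) * g⁻¹ := by group
        _ = g * (u * (g⁻¹ * l * g⁻¹⁻¹)) * g⁻¹ := by rw [Subgroup.mem_centralizer_iff.1 huL _ hl']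
        _ = g * u * g⁻¹ * l := by group
    exact hnM U inf_le_left (key R hRL) (key A hAL)
  rcases hmin U hUn inf_le_left with hU0 | hUM
  · -- `M = [M, L]`
    refine hfinish ?_
    have hLM : L ≤ Subgroup.normalizer (M : Set X) := by rw [Subgroup.normalizer_eq_top]; exact le_top
    haveI : Group.IsNilpotent L := (hRp.to_le hLR).isNilpotent
    have hMeq : M ≤ S := by
      intro m hm
      obtain ⟨n, hn, c, hc, rfl⟩ := exists_commutator_mul_centralizer hLM
        (hMr.symm.coprime_dvd_left (Subgroup.card_dvd_of_le hLR)) (Or.inl inferInstance) hm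
      have hc1 : c ∈ U := hc
      rw [hU0, Subgroup.mem_bot] at hc1
      rw [hc1, mul_one]; exact hMLS' hn
    rw [le_antisymm hSM hMeq, Subgroup.normalizer_eq_top]; exact le_top
  -- `L` centralizes `M`
  by_cases hC1 : C = ⊥
  · rw [hC1]; exact bot_le
  exfalso
  have hLc : ∀ l ∈ L, ∀ m ∈ M, l * m = m * l := fun l hl m hm =>
    Subgroup.mem_centralizer_iff.1 (hUM.ge hm).2 l hl
  obtain ⟨N, ⟨hLN, hNR, hNC⟩, hNmax⟩ := (Set.toFinite
    {N : Subgroup X | L ≤ N ∧ N ≤ R ∧ M ⊓ Subgroup.centralizer (N : Set X) ≠ ⊥}).exists_maximal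
    ⟨L, le_rfl, hLR, fun h => hMne (hUM.symm.trans h)⟩
  have hRN : R ≤ Subgroup.normalizer (N : Set X) := hΦlift N (hΦL.trans hLN) hNR
  obtain ⟨a₀, ha₀⟩ : ∃ a₀ : A, orderOf a₀ = p := exists_prime_orderOf_dvd_card' p (by rw [s.cardA])
  set a : X := (a₀ : X) with ha
  have haA : a ∈ A := a₀.2
  have hgen : ∀ b : X, b ∈ A → b ≠ 1 → Subgroup.zpowers b = A := fun b hb hb1 => by
    refine Subgroup.eq_of_le_of_card_ge (Subgroup.zpowers_le.2 hb) ?_
    rw [Nat.card_zpowers, s.cardA]
    have : orderOf b ∣ p := s.cardA ▸ Subgroup.orderOf_dvd_natCard A hb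
    rcases (Nat.dvd_prime s.prime).1 this with h | h
    · exact absurd (orderOf_eq_one_iff.1 h) hb1
    · exact h.ge
  have ha1 : a ≠ 1 := fun h => s.prime.ne_one (by rw [← ha₀, ← Subgroup.orderOf_coe, ← ha, h, orderOf_one])
  have ha21 : a * a ≠ 1 := fun h => by
    have : p ∣ 2 := by rw [← ha₀, ← Subgroup.orderOf_coe, ← ha]; exact orderOf_dvd_of_pow_eq_one (by rw [pow_two, h])
    exact s.odd ((Nat.prime_dvd_prime_iff_eq s.prime Nat.prime_two).1 this)
  have hCa : ∀ c ∈ C, a * c * a⁻¹ = c := fun c hc => by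
    rw [Subgroup.mem_centralizer_iff.1 hc.2 a haA, mul_inv_cancel_right]
  have hcube : Nat.card C ^ 3 ≤ Nat.card M := by
    by_cases hNL : N = L
    · -- outside `L` no fixed points
      have hfp : ∀ e ∈ R, e ∉ L → ∀ m ∈ M, e * m * e⁻¹ = m → m = 1 := by
        intro e he heL m hm hem
        by_contra hm1
        have hmem : N ⊔ Subgroup.zpowers e ≤ Subgroup.centralizer ({m} : Set X) := by
          refine sup_le (fun l hl => ?_) (Subgroup.zpowers_le.2 ?_)
          · exact Subgroup.mem_centralizer_singleton_iff.2 (hLc l (hNL ▸ hl) m hm)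
          · exact Subgroup.mem_centralizer_singleton_iff.2 (mul_inv_eq_iff_eq_mul.1 hem)
        have hnb : M ⊓ Subgroup.centralizer ((N ⊔ Subgroup.zpowers e : Subgroup X) : Set X) ≠ ⊥ := fun h0 =>
          hm1 (Subgroup.mem_bot.1 (h0.le ⟨hm, Subgroup.mem_centralizer_iff.2 fun x hx =>
            Subgroup.mem_centralizer_singleton_iff.1 (hmem hx)⟩))
        exact heL (hNL ▸ hNmax ⟨hLN.trans le_sup_left, sup_le hNR (Subgroup.zpowers_le.2 he), hnb⟩ le_sup_left
          (Subgroup.mem_sup_right (Subgroup.mem_zpowers e)))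
      obtain ⟨e, he, heL⟩ : ∃ e ∈ R, e ∉ L := by
        by_contra! hc
        exact hLne (le_antisymm hLR hc)
      set f := a * e * a⁻¹ with hf
      set g := a * f * a⁻¹ with hg
      have hfR : f ∈ R := conj_mem hAR haA he
      have hgR : g ∈ R := conj_mem hAR haA hfR
      have hfixed : ∀ b ∈ A, b ≠ 1 → e⁻¹ * (b * e * b⁻¹) ∉ L := by
        intro b hb hb1 hmem
        have hall' : ∀ b' ∈ A, b' * e * b'⁻¹ * e⁻¹ ∈ L := by
          let T : Subgroup X :=
            { carrier := {b' | b' ∈ A ∧ e⁻¹ * (b' * e * b'⁻¹) ∈ L}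
              one_mem' := ⟨one_mem _, by simp⟩
              mul_mem' := by
                rintro u v ⟨hu, hu'⟩ ⟨hv, hv'⟩
                refine ⟨mul_mem hu hv, ?_⟩
                have := L.mul_mem hu' (conj_mem hAL hu hv')
                rwa [show e⁻¹ * (u * e * u⁻¹) * (u * (e⁻¹ * (v * e * v⁻¹)) * u⁻¹) =
                  e⁻¹ * (u * v * e * (u * v)⁻¹) by group] at this
              inv_mem' := by
                rintro u ⟨hu, hu'⟩
                refine ⟨inv_mem hu, ?_⟩
                have := L.inv_mem (conj_mem hAL (inv_mem hu) hu')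
                rwa [show (u⁻¹ * (e⁻¹ * (u * e * u⁻¹)) * u⁻¹⁻¹)⁻¹ = e⁻¹ * (u⁻¹ * e * u⁻¹⁻¹) by group] at this }
          have hTA : A ≤ T := by
            rw [← hgen b hb hb1, Subgroup.zpowers_le]
            exact ⟨hb, hmem⟩
          intro b' hb'
          have := conj_mem hRL he (hTA hb').2
          rwa [show e * (e⁻¹ * (b' * e * b'⁻¹)) * e⁻¹ = b' * e * b'⁻¹ * e⁻¹ by group] at this
        obtain ⟨n, hn, hnc⟩ := s.exists_fixed_rep (hLR.trans hRH) hAL hall'
        have := L.mul_mem (L.inv_mem hn) (hΦL (hCΦ ⟨R.mul_mem (hLR hn) he, hnc⟩))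
        rw [inv_mul_cancel_left] at this
        exact heL this
      have hef : e⁻¹ * f ∉ L := hfixed a haA ha1
      have heg : e⁻¹ * g ∉ L := by
        have := hfixed (a * a) (mul_mem haA haA) ha21
        rwa [show a * a * e * (a * a)⁻¹ = g by rw [hg, hf]; group] at this
      have hfg : f⁻¹ * g ∉ L := fun h => by
        refine hef ?_
        have := conj_mem hAL (inv_mem haA) h
        rwa [show a⁻¹ * (f⁻¹ * g) * a⁻¹⁻¹ = e⁻¹ * f by rw [hg, hf]; group] at this
      refine three_translates hMab (rfl : a * e * a⁻¹ = f) (rfl : a * f * a⁻¹ = g) ?_ ?_ C hCM hCa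
      · intro x hx m hm
        have hR2 : x.1 ∈ R ∧ x.2 ∈ R := by
          simp only [List.mem_cons, List.not_mem_nil, or_false] at hx
          rcases hx with rfl | rfl | rfl
          · exact ⟨he, hfR⟩
          · exact ⟨hfR, hgR⟩
          · exact ⟨he, hgR⟩
        have hl : ⁅x.1, x.2⁆ ∈ L := hΦL (hder (Subgroup.commutator_mem_commutator hR2.1 hR2.2))
        set v := x.2 * x.1 * m * (x.2 * x.1)⁻¹
        have hv : v ∈ M := (inferInstance : M.Normal).conj_mem m hm _
        rw [show x.1 * x.2 * m * (x.1 * x.2)⁻¹ = ⁅x.1, x.2⁆ * v * ⁅x.1, x.2⁆⁻¹ by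
          simp only [v, commutatorElement_def]; group, hLc _ hl v hv, mul_inv_cancel_right]
      · intro x hx m hm heq
        have hR2 : x.1 ∈ R ∧ x.2 ∈ R ∧ x.1⁻¹ * x.2 ∉ L := by
          simp only [List.mem_cons, List.not_mem_nil, or_false] at hx
          rcases hx with rfl | rfl | rfl
          · exact ⟨he, hfR, hef⟩
          · exact ⟨hfR, hgR, hfg⟩
          · exact ⟨he, hgR, heg⟩
        refine hfp _ (mul_mem (inv_mem hR2.1) hR2.2.1) hR2.2.2 m hm ?_
        calc x.1⁻¹ * x.2 * m * (x.1⁻¹ * x.2)⁻¹ = x.1⁻¹ * (x.2 * m * x.2⁻¹) * x.1 := by group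
          _ = m := by rw [← heq]; group
    · -- the orbit of `N`
      have hNA : ∀ b ∈ A, b ∈ Subgroup.normalizer (N : Set X) → b = 1 := by
        intro b hb hbN
        by_contra hb1
        have hAN : A ≤ Subgroup.normalizer (N : Set X) := by
          rw [← hgen b hb hb1]; exact Subgroup.zpowers_le.2 hbN
        rcases hLirr N hLN hNR hAN with h | h
        · exact hNL h
        subst h
        -- `N` centralizes `M`
        have key : ∀ B : Subgroup X, B ≤ Subgroup.normalizer (N : Set X) →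
            B ≤ Subgroup.normalizer ((M ⊓ Subgroup.centralizer (N : Set X) : Subgroup X) : Set X) := by
          intro B hB
          refine (le_inf ?_ (hB.trans ?_)).trans Subgroup.inf_normalizer_le_normalizer_inf
          · rw [Subgroup.normalizer_eq_top]; exact le_top
          · rw [Subgroup.le_normalizer_iff]
            intro g hg u hu
            refine Subgroup.mem_centralizer_iff.2 fun l hl => ?_
            have hl' : g⁻¹ * l * g⁻¹⁻¹ ∈ N := conj_mem (le_refl _) (inv_mem hg) hl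
            calc l * (g * u * g⁻¹) = g * (g⁻¹ * l * g⁻¹⁻¹ * u) * g⁻¹ := by group
              _ = g * (u * (g⁻¹ * l * g⁻¹⁻¹)) * g⁻¹ := by rw [Subgroup.mem_centralizer_iff.1 hu _ hl']
              _ = g * u * g⁻¹ * l := by group
        have hMN := (hmin _ (hnM _ inf_le_left (key N Subgroup.le_normalizer) (key A hAN)) inf_le_left).resolve_left hNC
        have hMAn : (⁅M, A⁆ : Subgroup X).Normal := by
          refine hnM _ (commutator_le_of_normalizer hAM) ?_ (CoprimeAction.le_normalizer_commutator hAM)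
          rw [Subgroup.le_normalizer_iff]
          intro g hg u hu
          rw [Subgroup.mem_centralizer_iff.1 (hMN.ge (commutator_le_of_normalizer hAM hu)).2 g hg,
            mul_inv_cancel_right]
          exact hu
        have hMA' := (hmin _ hMAn (commutator_le_of_normalizer hAM)).resolve_left hMA
        refine hC1 (le_bot_iff.1 fun c hc => hMA0.le ⟨hMA'.ge hc.1, hc.2⟩)
      let Nb : ↥A → Subgroup X := fun b => N.map (MulAut.conj (b : X)).toMonoidHom
      let V : ↥A → Subgroup X := fun b => M ⊓ Subgroup.centralizer (Nb b : Set X)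
      have hVconj : ∀ (c : ↥A) (b : ↥A), ∀ v ∈ V b, (c : X) * v * (c : X)⁻¹ ∈ V (c * b) := by
        rintro c b v ⟨hvM, hvc⟩
        refine ⟨(inferInstance : M.Normal).conj_mem v hvM _, Subgroup.mem_centralizer_iff.2 ?_⟩
        rintro _ ⟨n, hn, rfl⟩
        have h1 := Subgroup.mem_centralizer_iff.1 hvc _ (Subgroup.mem_map_of_mem _ hn)
        simp only [MulEquiv.coe_toMonoidHom, MulAut.conj_apply, Subgroup.coe_mul] at h1 ⊢
        calc (c : X) * b * n * ((c : X) * b)⁻¹ * ((c : X) * v * (c : X)⁻¹)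
            = (c : X) * ((b : X) * n * (b : X)⁻¹ * v) * (c : X)⁻¹ := by group
          _ = (c : X) * (v * ((b : X) * n * (b : X)⁻¹)) * (c : X)⁻¹ := by rw [h1]
          _ = _ := by group
      have hNbR : ∀ b : ↥A, Nb b ≤ R := by
        rintro b _ ⟨n, hn, rfl⟩; exact conj_mem hAR b.2 (hNR hn)
      have hLNb : ∀ b : ↥A, L ≤ Nb b := fun b l hl =>
        ⟨(b : X)⁻¹ * l * (b : X)⁻¹⁻¹, hLN (conj_mem hAL (inv_mem b.2) hl), by simp [mul_assoc]⟩
      have hVR : ∀ b : ↥A, R ≤ Subgroup.normalizer (V b : Set X) := by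
        intro b
        have hRb : R ≤ Subgroup.normalizer (Nb b : Set X) := hΦlift _ (hΦL.trans (hLNb b)) (hNbR b)
        rw [Subgroup.le_normalizer_iff]
        rintro g hg u ⟨huM, hu⟩
        refine ⟨(inferInstance : M.Normal).conj_mem u huM g, Subgroup.mem_centralizer_iff.2 fun l hl => ?_⟩
        have hl' := conj_mem hRb (inv_mem hg) hl
        calc l * (g * u * g⁻¹) = g * (g⁻¹ * l * g⁻¹⁻¹ * u) * g⁻¹ := by group
          _ = g * (u * (g⁻¹ * l * g⁻¹⁻¹)) * g⁻¹ := by rw [Subgroup.mem_centralizer_iff.1 hu _ hl']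
          _ = g * u * g⁻¹ * l := by group
      have hN1 : Nb 1 = N := by
        simp only [Nb, OneMemClass.coe_one, map_one]
        exact N.map_id
      have hV1 : V 1 ≠ ⊥ := by
        simp only [V, hN1]; exact hNC
      set VV := ⨆ b : ↥A, V b with hVV
      have hVVM : VV ≤ M := iSup_le fun b => inf_le_left
      have hVVn : VV.Normal := by
        refine hnM VV hVVM ?_ ?_
        · rw [Subgroup.le_normalizer_iff]
          intro g hg x hx
          have hle : VV ≤ VV.comap (MulAut.conj g).toMonoidHom :=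
            iSup_le fun b v hv => le_iSup V b (conj_mem (hVR b) hg hv)
          exact hle hx
        · rw [Subgroup.le_normalizer_iff]
          intro g hg x hx
          have hle : VV ≤ VV.comap (MulAut.conj g).toMonoidHom :=
            iSup_le fun b v hv => le_iSup V (⟨g, hg⟩ * b) (hVconj ⟨g, hg⟩ b v hv)
          exact hle hx
      have hVVeq : VV = M := (hmin VV hVVn hVVM).resolve_left
        fun h => hV1 (le_bot_iff.1 ((le_iSup V 1).trans h.le))
      -- the norm map
      letI : CommGroup ↥M := { (inferInstance : Group ↥M) with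
        mul_comm := fun u v => Subtype.ext (hMab u u.2 v v.2) }
      let ν : ↥M →* ↥M := ∏ b : ↥A, conjOn M (b : X)
      have hν : ∀ m, ν m = ∏ b : ↥A, conjOn M (b : X) m := fun m => MonoidHom.finsetProd_apply _ _ _
      have hνinv : ∀ (c : ↥A) (m : ↥M), ν (conjOn M (c : X) m) = ν m := by
        intro c m
        rw [hν, hν]
        refine Fintype.prod_equiv (Equiv.mulRight c) _ _ fun b => ?_
        rw [conjOn_comp]; rfl
      have hrange : ∀ m : ↥M, ν m ∈ ((V 1).subgroupOf M).map ν := by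
        have hle : VV ≤ ((((V 1).subgroupOf M).map ν).comap ν).map M.subtype := by
          refine iSup_le fun b v hv => ⟨⟨v, hv.1⟩, ?_, rfl⟩
          have hv' := hVconj b⁻¹ b v hv
          rw [inv_mul_cancel] at hv'
          refine ⟨conjOn M ((b⁻¹ : ↥A) : X) ⟨v, hv.1⟩, hv', hνinv b⁻¹ _⟩
        intro m
        obtain ⟨y, hy, e⟩ := hle (hVVeq.ge m.2)
        rw [← Subtype.ext e]; exact hy
      have hCV : Nat.card C ≤ Nat.card (V 1) := by
        have h1 : Nat.card C ≤ Nat.card (((V 1).subgroupOf M).map ν) := by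
          refine Nat.card_le_card_of_injective (fun c : ↥C => (⟨ν ⟨c, hCM c.2⟩, hrange _⟩ : ↥(((V 1).subgroupOf M).map ν))) ?_
          intro c d hcd
          have hpow : ∀ c : ↥C, ν ⟨c, hCM c.2⟩ = ⟨c, hCM c.2⟩ ^ Nat.card A := by
            intro c
            rw [hν, Finset.prod_eq_pow_card (b := (⟨c, hCM c.2⟩ : ↥M)) fun b _ => Subtype.ext (by
              show (b : X) * c * (b : X)⁻¹ = c
              rw [Subgroup.mem_centralizer_iff.1 c.2.2 b b.2, mul_inv_cancel_right]), Finset.card_univ,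
              ← Nat.card_eq_fintype_card]
          have h := congrArg Subtype.val hcd
          simp only [hpow] at h
          have := (powCoprime (s.copLE hMH).symm).injective h
          exact Subtype.ext (congrArg Subtype.val this :)
        refine h1.trans ((Nat.le_of_dvd Nat.card_pos (Subgroup.card_map_dvd _ ν)).trans ?_)
        exact (Nat.card_congr (Subgroup.subgroupOfEquivOfLe (inf_le_left : V 1 ≤ M)).toEquiv).le
      have hdis : ∀ b c : ↥A, b ≠ c → ∀ x, x ∈ V b → x ∈ V c → x = 1 := by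
        intro b c hbc x hxb hxc
        by_contra hx
        set y := ((b⁻¹ : ↥A) : X) * x * ((b⁻¹ : ↥A) : X)⁻¹ with hy
        have hy1 := hVconj b⁻¹ b x hxb
        have hy2 := hVconj b⁻¹ c x hxc
        rw [inv_mul_cancel, ← hy] at hy1
        rw [← hy] at hy2
        have hmem : N ⊔ Nb (b⁻¹ * c) ≤ Subgroup.centralizer ({y} : Set X) := by
          refine sup_le (fun n hn => ?_) fun n hn => ?_
          · exact Subgroup.mem_centralizer_singleton_iff.2
              (Subgroup.mem_centralizer_iff.1 hy1.2 n (hN1.ge hn))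
          · exact Subgroup.mem_centralizer_singleton_iff.2 (Subgroup.mem_centralizer_iff.1 hy2.2 n hn)
        have hnb : M ⊓ Subgroup.centralizer ((N ⊔ Nb (b⁻¹ * c) : Subgroup X) : Set X) ≠ ⊥ := fun h0 => by
          have h := h0.le (⟨hy1.1, Subgroup.mem_centralizer_iff.2 fun z hz =>
            Subgroup.mem_centralizer_singleton_iff.1 (hmem hz)⟩ : y ∈ M ⊓ Subgroup.centralizer ((N ⊔ Nb (b⁻¹ * c) : Subgroup X) : Set X))
          rw [Subgroup.mem_bot, hy] at h
          exact hx (conj_eq_one_iff.mp h)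
        have hle := le_sup_right.trans (hNmax ⟨hLN.trans le_sup_left, sup_le hNR (hNbR _), hnb⟩ le_sup_left)
        have hbn : ((b⁻¹ * c : ↥A) : X) ∈ Subgroup.normalizer (N : Set X) := by
          rw [Subgroup.mem_normalizer_iff_map_conj_eq]
          exact Subgroup.eq_of_le_of_card_ge hle
            (Subgroup.card_map_of_injective (MulAut.conj _).injective).ge
        have h1 : b⁻¹ * c = 1 := Subtype.ext (hNA _ (b⁻¹ * c).2 hbn)
        exact hbc (inv_mul_eq_one.1 h1)
      set b1 : ↥A := a₀ with hb1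
      set b2 : ↥A := a₀ * a₀ with hb2
      have hb01 : (1 : ↥A) ≠ b1 := fun h => ha1 (congrArg Subtype.val h.symm)
      have hb02 : (1 : ↥A) ≠ b2 := fun h => ha21 (congrArg Subtype.val h.symm)
      have hb12 : b1 ≠ b2 := fun h => hb01 (right_eq_mul.1 h).symm
      have hNbeq : ∀ b c : ↥A, ∀ v ∈ V b, ∀ n ∈ Nb c, n * v * n⁻¹ ∈ V b := fun b c v hv n hn =>
        conj_mem (hVR b) (hNbR c hn) hv
      have hinj : Function.Injective (fun x : ↥(V 1) × ↥(V b1) × ↥(V b2) =>
          (⟨(x.1 : X) * x.2.1 * x.2.2, mul_mem (mul_mem x.1.2.1 x.2.1.2.1) x.2.2.2.1⟩ : ↥M)) := by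
        rintro ⟨u, v, w⟩ ⟨u', v', w'⟩ h
        have h' : (u : X) * v * w = u' * v' * w' := congrArg Subtype.val h
        have hsum : ((u' : X)⁻¹ * u) * ((v : X) * (v' : X)⁻¹) = (w' : X) * (w : X)⁻¹ := by
          have e1 : (v' : X) * w' = w' * v' := hMab _ v'.2.1 _ w'.2.1
          calc (u' : X)⁻¹ * u * ((v : X) * (v' : X)⁻¹)
              = (u' : X)⁻¹ * ((u : X) * v * w) * (w : X)⁻¹ * (v' : X)⁻¹ := by group
            _ = (v' : X) * (w' * (w : X)⁻¹) * (v' : X)⁻¹ := by rw [h']; group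
            _ = (w' : X) * (w : X)⁻¹ := hMid _ v'.2.1 _ (mul_mem w'.2.1 (inv_mem w.2.1))
        set x := (u' : X)⁻¹ * u
        set y := (v : X) * (v' : X)⁻¹
        have hx : x ∈ V 1 := mul_mem (inv_mem u'.2) u.2
        have hy : y ∈ V b1 := mul_mem v.2 (inv_mem v'.2)
        have hxy : x * y ∈ V b2 := hsum ▸ mul_mem w'.2 (inv_mem w.2)
        have hx1 : ∀ n ∈ Nb b2, n * x * n⁻¹ = x := by
          intro n hn
          have hnxy : n * (x * y) * n⁻¹ = x * y := by
            rw [Subgroup.mem_centralizer_iff.1 hxy.2 n hn, mul_inv_cancel_right]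
          have hA1 : x⁻¹ * (n * x * n⁻¹) ∈ V 1 := mul_mem (inv_mem hx) (hNbeq 1 b2 x hx n hn)
          have hA2 : x⁻¹ * (n * x * n⁻¹) ∈ V b1 := by
            have e : x⁻¹ * (n * x * n⁻¹) = y * (n * y * n⁻¹)⁻¹ := by
              rw [show y * (n * y * n⁻¹)⁻¹ = x⁻¹ * (x * y) * (n * y * n⁻¹)⁻¹ by group]
              conv_rhs => rw [← hnxy]
              group
            rw [e]; exact mul_mem hy (inv_mem (hNbeq b1 b2 y hy n hn))
          exact (inv_mul_eq_one.1 (hdis 1 b1 hb01 _ hA1 hA2)).symm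
        have hx2 : x ∈ V b2 := ⟨hx.1, Subgroup.mem_centralizer_iff.2 fun n hn =>
          mul_inv_eq_iff_eq_mul.1 (hx1 n hn)⟩
        have hx0 : x = 1 := hdis 1 b2 hb02 x hx hx2
        rw [hx0, one_mul] at hxy hsum
        have hy0 : y = 1 := hdis b1 b2 hb12 y hy hxy
        rw [hy0] at hsum
        have e1 : (u : X) = u' := (inv_mul_eq_one.1 hx0).symm
        have e2 : (v : X) = v' := mul_inv_eq_one.1 hy0
        have e3 : (w' : X) = w := mul_inv_eq_one.1 hsum.symm
        exact Prod.ext (Subtype.ext e1) (Prod.ext (Subtype.ext e2) (Subtype.ext e3.symm))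
      have hcard := Nat.card_le_card_of_injective _ hinj
      rw [Nat.card_prod, Nat.card_prod] at hcard
      have hVc : ∀ b : ↥A, Nat.card (V 1) ≤ Nat.card (V b) := by
        intro b
        refine Nat.card_le_card_of_injective (fun v : ↥(V 1) => (⟨(b : X) * v * (b : X)⁻¹, by
          simpa using hVconj b 1 v v.2⟩ : ↥(V b))) fun v w h => ?_
        exact Subtype.ext (by simpa using congrArg Subtype.val h)
      calc Nat.card C ^ 3 ≤ Nat.card (V 1) ^ 3 := Nat.pow_le_pow_left hCV 3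
        _ = Nat.card (V 1) * (Nat.card (V 1) * Nat.card (V 1)) := by ring
        _ ≤ Nat.card (V 1) * (Nat.card (V b1) * Nat.card (V b2)) :=
          Nat.mul_le_mul le_rfl (Nat.mul_le_mul (hVc b1) (hVc b2))
        _ ≤ _ := hcard
  have h2 : 2 ≤ Nat.card C := Subgroup.one_lt_card_iff_ne_bot C |>.2 hC1
  have : Nat.card C ^ 3 ≤ Nat.card C ^ 2 := hcube.trans hle2
  have := (Nat.pow_le_pow_iff_right h2).1 this
  omega

end CfsgLib.CommFixed
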