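import Cfsg.Agent.CommFixed.Complement

/-!
`C_{[H,A]}(A)` is generated by the fixed points in the subgroups `[h, A]`.
-/

set_option autoImplicit false
set_option linter.unusedSectionVars false
set_option maxHeartbeats 1000000

namespace CfsgLib.CommFixed

open scoped commutatorElement Pointwise
open CoprimeAction (exists_commutator_mul_centralizer conj_mem commutator_le_of_normalizer)

universe u

variable {X : Type u} [Group X] [Finite X] {p : ℕ} {A H : Subgroup X}

local notation "CA" => Subgroup.centralizer (A : Set X)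

/-- A central subgroup of `H` of order a power of `q`, centralized by `A`, cannot be a direct factor of an
invariant Sylow `q`-subgroup. -/
theorem Setup.no_central_factor (s : Setup p A H) {M Q Q₀ : Subgroup X} (hMc : H ≤ Subgroup.centralizer (M : Set X))
    (hMA : M ≤ CA) (hMne : M ≠ ⊥) (hMQ : M ≤ Q) (hQH : Q ≤ H) (hQ0 : Q₀ ≤ Q) (hdisj : Q₀ ⊓ M = ⊥)
    (hsup : ∀ x ∈ Q, ∃ y ∈ Q₀, ∃ m ∈ M, x = y * m) (hidx : (Nat.card M).Coprime (Q.relIndex H)) : False := by
  classical
  haveI hHn : H.Normal := s.normalH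
  have hMH : M ≤ H := hMQ.trans hQH
  have hcomm : ∀ m ∈ M, ∀ x ∈ H, m * x = x * m := fun m hm x hx =>
    (Subgroup.mem_centralizer_iff.1 (hMc hx) m hm)
  letI : CommGroup ↥M := { (inferInstance : Group ↥M) with
    mul_comm := fun u v => Subtype.ext (hcomm u u.2 v (hMH v.2)) }
  set Q' := Q.subgroupOf H with hQ'
  choose fy hfy fm hfm hxe using hsup
  have huniq : ∀ y ∈ Q₀, ∀ y' ∈ Q₀, ∀ m ∈ M, ∀ m' ∈ M, y * m = y' * m' → m = m' := by
    intro y hy y' hy' m hm m' hm' e
    have h1 : y'⁻¹ * y = m' * m⁻¹ := by rw [eq_mul_inv_iff_mul_eq, mul_assoc, e, inv_mul_cancel_left]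
    have h2 : y'⁻¹ * y ∈ Q₀ ⊓ M :=
      ⟨Q₀.mul_mem (Q₀.inv_mem hy') hy, h1 ▸ M.mul_mem hm' (M.inv_mem hm)⟩
    rw [hdisj, Subgroup.mem_bot] at h2
    rw [h2] at h1
    exact (mul_inv_eq_one.1 h1.symm).symm
  let ϕ : ↥Q' →* ↥M := MonoidHom.mk' (fun x => ⟨fm ((x : ↥H) : X) x.2, hfm _ x.2⟩) (by
    rintro ⟨⟨u, huH⟩, hu⟩ ⟨⟨v, hvH⟩, hv⟩
    refine Subtype.ext (huniq _ (hfy (u * v) (Q.mul_mem hu hv)) (fy u hu * fy v hv) (mul_mem (hfy u hu) (hfy v hv))
      _ (hfm _ _) _ (mul_mem (hfm u hu) (hfm v hv)) ?_)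
    show fy (u * v) _ * fm (u * v) _ = fy u hu * fy v hv * (fm u hu * fm v hv)
    rw [← hxe]
    conv_lhs => rw [hxe u hu, hxe v hv]
    rw [mul_assoc, ← mul_assoc (fm u hu), hcomm _ (hfm u hu) _ (hQH (hQ0 (hfy v hv))), mul_assoc, ← mul_assoc])
  obtain ⟨m, hm, hm1⟩ : ∃ m ∈ M, m ≠ 1 := (Subgroup.ne_bot_iff_exists_ne_one.1 hMne).elim
    fun m hm => ⟨m, m.2, fun h => hm (Subtype.ext h)⟩
  have hC : H ⊓ CA ≤ ⁅H, H⁆ := s.fixed_le_of_commutator_le le_rfl (Subgroup.commutator_le_self H) (by
    rw [Subgroup.normalizer_eq_top]; exact le_top)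
  let mH : ↥H := ⟨m, hMH hm⟩
  have hmc : mH ∈ commutator ↥H := by
    have : m ∈ (commutator ↥H).map H.subtype := by
      rw [commutator_def, Subgroup.map_commutator, ← MonoidHom.range_eq_map, Subgroup.range_subtype]
      exact hC ⟨hMH hm, hMA hm⟩
    obtain ⟨w, hw, e⟩ := this
    rwa [← Subtype.ext (a1 := w) (a2 := mH) e]
  have hkey : ∀ (k : ℕ) (g₀ : ↥H), g₀⁻¹ * mH ^ k * g₀ ∈ Q' → g₀⁻¹ * mH ^ k * g₀ = mH ^ k := by
    intro k g₀ _
    refine Subtype.ext ?_
    push_cast
    rw [mul_assoc, hcomm _ (M.pow_mem hm k) _ g₀.2, inv_mul_cancel_left]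
  have ht : MonoidHom.transfer ϕ mH = 1 := Abelianization.commutator_subset_ker _ hmc
  rw [MonoidHom.transfer_eq_pow ϕ mH hkey] at ht
  have hval : m ^ Q'.index = 1 := by
    have hh := congrArg Subtype.val ht
    have hmem : m ^ Q'.index ∈ Q := Q.pow_mem (hMQ hm) _
    have e1 : fm (m ^ Q'.index) hmem = 1 := hh
    have e := hxe _ hmem
    rw [e1, mul_one] at e
    have : m ^ Q'.index ∈ Q₀ ⊓ M := ⟨e ▸ hfy _ hmem, M.pow_mem hm _⟩
    rwa [hdisj, Subgroup.mem_bot] at this
  exact hm1 (orderOf_eq_one_iff.1 (Nat.eq_one_of_dvd_coprimes hidx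
    (Subgroup.orderOf_dvd_natCard M hm) (orderOf_dvd_of_pow_eq_one hval)))

/-- The reduction to a minimal normal subgroup. -/
theorem Setup.main (s : Setup p A H)
    (hquot : ∀ (M : Subgroup X) [M.Normal], M ≤ H → M ≠ ⊥ →
      (H ⊓ CA).map (QuotientGroup.mk' M) ≤ fixJoin (A.map (QuotientGroup.mk' M)) (H.map (QuotientGroup.mk' M))) :
    H ⊓ CA ≤ fixJoin A H := by
  classical
  haveI := Fact.mk s.prime
  haveI hHn : H.Normal := s.normalH
  haveI := s.sol
  have hAn : ∀ T : Subgroup X, T.Normal → A ≤ Subgroup.normalizer (T : Set X) := fun T hT => by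
    rw [Subgroup.normalizer_eq_top]; exact le_top
  by_cases hpp : ∃ q : ℕ, q.Prime ∧ IsPGroup q H
  · obtain ⟨q, hq, hH⟩ := hpp
    exact s.of_isPGroup hq hH
  push Not at hpp
  have hHne : H ≠ ⊥ := fun h => hpp 2 Nat.prime_two (h ▸ IsPGroup.of_bot)
  obtain ⟨M, ⟨hMn, hMH, hMne⟩, hMmin⟩ := (Set.toFinite
    {M : Subgroup X | M.Normal ∧ M ≤ H ∧ M ≠ ⊥}).exists_minimal ⟨H, hHn, le_rfl, hHne⟩
  haveI := hMn
  have hmin : ∀ T : Subgroup X, T.Normal → T ≤ M → T = ⊥ ∨ T = M := fun T hT hTM => by
    by_cases h : T = ⊥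
    · exact Or.inl h
    · exact Or.inr (le_antisymm hTM (hMmin ⟨hT, hTM.trans hMH, h⟩ hTM))
  have hMab : ∀ u ∈ M, ∀ v ∈ M, u * v = v * u := by
    have hsolM : Group.IsSolvable M := Group.isSolvable_of_isSolvable_injective (Subgroup.inclusion_injective hMH)
    haveI : (⁅M, M⁆ : Subgroup X).Normal := Subgroup.commutator_normal M M
    rcases hmin ⁅M, M⁆ inferInstance (Subgroup.commutator_le_self M) with h | h
    · intro u hu v hv
      exact commutatorElement_eq_one_iff_mul_comm.1 (Subgroup.mem_bot.1 (h.le (Subgroup.commutator_mem_commutator hu hv)))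
    · exfalso
      haveI : Nontrivial ↥M := (Subgroup.nontrivial_iff_ne_bot M).2 hMne
      refine (Group.IsSolvable.commutator_lt_top_of_nontrivial ↥M).ne ?_
      refine Subgroup.map_injective M.subtype_injective ?_
      rw [commutator_def, Subgroup.map_commutator, ← MonoidHom.range_eq_map, Subgroup.range_subtype, h]
  have hAM := hAn M inferInstance
  -- fixed points modulo `M`
  have hsplit : ∀ c ∈ H ⊓ CA, ∃ k ∈ fixJoin A H, ∃ m ∈ M ⊓ CA, c = k * m := by
    intro c hc
    set π := QuotientGroup.mk' M with hπ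
    have hle : fixJoin (A.map π) (H.map π) ≤ (fixJoin A H).map π := by
      refine iSup_le ?_
      rintro ⟨_, h, hh, rfl⟩ x ⟨hx, hxA⟩
      rw [← map_commOf] at hx
      obtain ⟨d, hd, rfl⟩ := hx
      set N := M ⊓ commOf A h
      have hAN : A ≤ Subgroup.normalizer (N : Set X) :=
        (le_inf hAM (le_normalizer_commOf A h)).trans Subgroup.inf_normalizer_le_normalizer_inf
      obtain ⟨n, hn, hnd⟩ := s.exists_fixed_rep (inf_le_left.trans hMH) hAN (h := d) fun b hb => by
        refine ⟨(QuotientGroup.eq_one_iff _).1 ?_, ?_⟩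
        · show π (b * d * b⁻¹ * d⁻¹) = 1
          simp only [map_mul, map_inv]
          rw [Subgroup.mem_centralizer_iff.1 hxA _ (Subgroup.mem_map_of_mem π hb)]
          group
        · exact (commOf A h).mul_mem (conj_mem (le_normalizer_commOf A h) hb hd) ((commOf A h).inv_mem hd)
      refine ⟨n * d, mem_fixJoin hh ((commOf A h).mul_mem hn.2 hd) hnd, ?_⟩
      rw [map_mul, show π n = 1 from (QuotientGroup.eq_one_iff n).2 hn.1, one_mul]
    obtain ⟨k, hk, e⟩ := (hquot M hMH hMne).trans hle (Subgroup.mem_map_of_mem π hc)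
    have hm : k⁻¹ * c ∈ M := (QuotientGroup.eq).1 e
    exact ⟨k, hk, k⁻¹ * c, ⟨hm, Subgroup.mul_mem _ (Subgroup.inv_mem _ (fixJoin_le_centralizer A H hk)) hc.2⟩,
      by group⟩
  suffices hC : M ⊓ CA ≤ fixJoin A H by
    intro c hc
    obtain ⟨k, hk, m, hm, rfl⟩ := hsplit c hc
    exact mul_mem hk (hC hm)
  have hsolA := s.solA
  have hAH : A ≤ Subgroup.normalizer (H : Set X) := s.nrm
  by_cases hMA : ⁅M, A⁆ = ⊥
  · -- `A` centralizes `M`, which is then central
    have hMC : M ≤ CA := Subgroup.commutator_eq_bot_iff_le_centralizer.1 hMA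
    have hHM := s.centralizes_of_fixed hMC
    by_contra hcon
    have hKM : ∀ y ∈ M, y ∈ fixJoin A H → y = 1 := by
      intro y hy hyK
      by_contra hy1
      refine hcon fun c hc => ?_
      have hzn : (fixJoin A H ⊓ M).Normal := s.normal_of
        (by
          rw [Subgroup.le_normalizer_iff]
          intro g hg u hu
          rw [← Subgroup.mem_centralizer_iff.1 (hHM hg) u hu.2, mul_inv_cancel_right]
          exact hu)
        (by
          rw [Subgroup.le_normalizer_iff]
          intro g hg u hu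
          rw [Subgroup.mem_centralizer_iff.1 (hMC hu.2) g hg, mul_inv_cancel_right]
          exact hu)
      exact (((hmin _ hzn inf_le_right).resolve_left fun h => hy1 (Subgroup.mem_bot.1 (h.le ⟨hyK, hy⟩))).ge hc.1).1
    obtain ⟨q, hqp, hqd⟩ := Nat.exists_prime_and_dvd (n := Nat.card M) (fun h => hMne (Subgroup.card_eq_one.1 h))
    haveI := Fact.mk hqp
    obtain ⟨y, hy⟩ := exists_prime_orderOf_dvd_card' (G := ↥M) q hqd
    have hcardM : Nat.card M = q := by
      have hzn : (Subgroup.zpowers (y : X)).Normal := s.normal_of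
        (by
          rw [Subgroup.le_normalizer_iff]
          intro g hg u hu
          rw [← Subgroup.mem_centralizer_iff.1 (hHM hg) u (Subgroup.zpowers_le.2 y.2 hu), mul_inv_cancel_right]
          exact hu)
        (by
          rw [Subgroup.le_normalizer_iff]
          intro g hg u hu
          rw [Subgroup.mem_centralizer_iff.1 (hMC (Subgroup.zpowers_le.2 y.2 hu)) g hg, mul_inv_cancel_right]
          exact hu)
      have hne : Subgroup.zpowers (y : X) ≠ ⊥ := by
        rw [Ne, Subgroup.zpowers_eq_bot]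
        intro h
        have h' : orderOf y = 1 := by rw [← Subgroup.orderOf_coe, h, orderOf_one]
        rw [hy] at h'
        exact hqp.ne_one h'
      rw [← (hmin _ hzn (Subgroup.zpowers_le.2 y.2)).resolve_left hne, Nat.card_zpowers, Subgroup.orderOf_coe, hy]
    have hMp : IsPGroup q M := IsPGroup.of_card (n := 1) (by rw [hcardM, pow_one])
    obtain ⟨P, hMP, hAP⟩ := CoprimeAction.exists_invariant_sylow_ge (p := q) s.nrm s.cop (Or.inl hsolA) hMH hMp hAM
    set Q := (P : Subgroup ↥H).map H.subtype with hQ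
    have hQH : Q ≤ H := Subgroup.map_subtype_le _
    have hQp : IsPGroup q Q := P.2.map _
    have hQlt : Q < H := lt_of_le_of_ne hQH fun h => hpp q hqp (h ▸ hQp)
    have hQA : ⁅Q, A⁆ ⊓ CA ≤ fixJoin A H := s.ih Q hQlt hAP
    set Q₀ := ⁅Q, A⁆ ⊔ (fixJoin A H ⊓ Q) with hQ₀
    have hQ0 : Q₀ ≤ Q := sup_le (commutator_le_of_normalizer hAP) inf_le_right
    refine s.no_central_factor hHM hMC hMne hMP hQH hQ0 ?_ ?_ ?_
    · rw [eq_bot_iff]
      rintro x ⟨hx, hxM⟩
      have hn : fixJoin A H ⊓ Q ≤ Subgroup.normalizer ((⁅Q, A⁆ : Subgroup X) : Set X) :=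
        inf_le_right.trans CoprimeAction.self_le_normalizer_commutator
      have := Subgroup.coe_mul_of_right_le_normalizer_left ⁅Q, A⁆ (fixJoin A H ⊓ Q) hn
      have hx' : x ∈ ((⁅Q, A⁆ ⊔ (fixJoin A H ⊓ Q) : Subgroup X) : Set X) := hx
      rw [this] at hx'
      obtain ⟨n, hn', k, hk, rfl⟩ := Set.mem_mul.1 hx'
      have hnA : n ∈ CA := by
        have := Subgroup.mul_mem _ (hMC hxM) (Subgroup.inv_mem _ (fixJoin_le_centralizer A H hk.1))
        rwa [mul_inv_cancel_right] at this
      exact Subgroup.mem_bot.2 (hKM _ hxM (mul_mem (hQA ⟨hn', hnA⟩) hk.1))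
    · intro x hx
      obtain ⟨n, hn, c, hc, rfl⟩ := exists_commutator_mul_centralizer hAP (s.copLE hQH) (Or.inl hsolA) hx
      obtain ⟨k, hk, m, hm, rfl⟩ := hsplit c ⟨hQH hc.1, hc.2⟩
      refine ⟨n * k, mul_mem (Subgroup.mem_sup_left hn) (Subgroup.mem_sup_right ⟨hk, ?_⟩), m, hm.1, by group⟩
      have := Q.mul_mem hc.1 (Q.inv_mem (hMP hm.1))
      rwa [mul_inv_cancel_right] at this
    · rw [hcardM]
      refine (Nat.Prime.coprime_iff_not_dvd hqp).2 ?_
      rw [Subgroup.relIndex, hQ, Subgroup.subgroupOf,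
        Subgroup.comap_map_eq_self_of_injective H.subtype_injective]
      exact P.not_dvd_index
  · -- all invariant Sylow subgroups normalize the known part of `M`, or `H = M R`
    have hP : ∀ q : (Nat.card H).primeFactors, ∃ P : Sylow (q : ℕ) ↥H,
        A ≤ Subgroup.normalizer ((P : Subgroup ↥H).map H.subtype : Set X) := fun q => by
      haveI := Fact.mk (Nat.prime_of_mem_primeFactors q.2)
      exact CoprimeAction.exists_invariant_sylow s.nrm s.cop (Or.inl hsolA) _
    choose P hPA using hP
    set S := ⁅M, A⁆ ⊔ (fixJoin A H ⊓ M) with hS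
    by_cases hcase : ∀ q, M ⊔ (P q : Subgroup ↥H).map H.subtype < H
    · have hHS : H ≤ Subgroup.normalizer (S : Set X) := by
        set J := ⨆ q, (P q : Subgroup ↥H).map H.subtype with hJ
        have hJH : J ≤ H := iSup_le fun q => Subgroup.map_subtype_le _
        have hJeq : J = H := by
          refine Subgroup.eq_of_le_of_card_ge hJH (Nat.le_of_dvd Nat.card_pos ?_)
          rw [← Nat.factorization_le_iff_dvd Nat.card_pos.ne' Nat.card_pos.ne']
          intro q
          by_cases hq : q ∈ (Nat.card H).primeFactors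
          · haveI := Fact.mk (Nat.prime_of_mem_primeFactors hq)
            refine ((Nat.prime_of_mem_primeFactors hq).pow_dvd_iff_le_factorization Nat.card_pos.ne').1 ?_
            rw [← CoprimeAction.card_sylow_map (P ⟨q, hq⟩)]
            exact Subgroup.card_dvd_of_le (le_iSup (fun q => (P q : Subgroup ↥H).map H.subtype) ⟨q, hq⟩)
          · rw [← Nat.support_factorization, Finsupp.notMem_support_iff] at hq
            simp [hq]
        rw [← hJeq]
        exact iSup_le fun q => s.step hMH (Subgroup.map_subtype_le _) (hPA q) (hcase q)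
      haveI hSn : S.Normal := s.normal_of hHS (s.le_normalizer_known M)
      intro c hc
      have hSne : S ≠ ⊥ := fun h => hMA (le_bot_iff.1 (le_sup_left.trans h.le))
      have := ((hmin S hSn (s.commutator_sup_le M)).resolve_left hSne).ge hc.1
      exact s.known_inf_centralizer ((s.normal_inf_centralizer_le hMH hMab).le.trans bot_le) ⟨this, hc.2⟩
    · push Not at hcase
      obtain ⟨q, hq⟩ := hcase
      haveI hqf := Fact.mk (Nat.prime_of_mem_primeFactors q.2)
      set R := (P q : Subgroup ↥H).map H.subtype with hR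
      have hRH : R ≤ H := Subgroup.map_subtype_le _
      have hRp : IsPGroup (q : ℕ) R := (P q).2.map _
      have hsup : M ⊔ R = H := by
        by_contra hne
        exact hq (lt_of_le_of_ne (sup_le hMH hRH) hne)
      have hdisj : M ⊓ R = ⊥ := by
        have hn : (M ⊓ R).Normal := by
          refine s.normal_of ?_ ((le_inf hAM (hPA q)).trans Subgroup.inf_normalizer_le_normalizer_inf)
          rw [← hsup]
          refine sup_le ?_ ?_
          · rw [Subgroup.le_normalizer_iff]
            intro g hg u hu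
            rw [hMab g hg u hu.1, mul_inv_cancel_right]
            exact hu
          · refine (le_inf ?_ Subgroup.le_normalizer).trans Subgroup.inf_normalizer_le_normalizer_inf
            rw [Subgroup.normalizer_eq_top]; exact le_top
        refine (hmin _ hn inf_le_left).resolve_right fun h => ?_
        rw [sup_eq_right.2 (h.ge.trans inf_le_right)] at hsup
        exact hpp q (Nat.prime_of_mem_primeFactors q.2) (hRp.of_equiv (MulEquiv.subgroupCongr hsup))
      have hcard : ∀ L : Subgroup X, L ≤ H → M ⊓ L = ⊥ → M ⊔ L = H → Nat.card H = Nat.card M * Nat.card L := by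
        intro L hLH hd hs
        rw [← Nat.card_prod]
        symm
        refine Nat.card_eq_of_bijective (fun x : M × L => (⟨(x.1 : X) * x.2, mul_mem (hMH x.1.2) (hLH x.2.2)⟩ : ↥H))
          ⟨?_, ?_⟩
        · rintro ⟨m, l⟩ ⟨m', l'⟩ h
          have h' : (m : X) * l = m' * l' := congrArg Subtype.val h
          have h1 : (m' : X)⁻¹ * m ∈ M ⊓ L := ⟨M.mul_mem (M.inv_mem m'.2) m.2, by
            rw [show (m' : X)⁻¹ * m = l' * (l : X)⁻¹ by rw [eq_mul_inv_iff_mul_eq, mul_assoc, h', inv_mul_cancel_left]]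
            exact L.mul_mem l'.2 (L.inv_mem l.2)⟩
          rw [hd, Subgroup.mem_bot, inv_mul_eq_one] at h1
          have hm' : (m : X) = m' := h1.symm
          rw [hm'] at h'
          exact Prod.ext (Subtype.ext hm') (Subtype.ext (mul_left_cancel h'))
        · rintro ⟨x, hx⟩
          have hn : L ≤ Subgroup.normalizer (M : Set X) := by rw [Subgroup.normalizer_eq_top]; exact le_top
          have := Subgroup.coe_mul_of_right_le_normalizer_left M L hn
          rw [← hs, ← SetLike.mem_coe, this] at hx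
          obtain ⟨m, hm, l, hl, rfl⟩ := Set.mem_mul.1 hx
          exact ⟨(⟨m, hm⟩, ⟨l, hl⟩), rfl⟩
      have hRcard := CoprimeAction.card_sylow_map (P q)
      have hMr : (Nat.card M).Coprime (Nat.card R) := by
        rw [hRcard]
        refine Nat.Coprime.pow_right _ ((Nat.Prime.coprime_iff_not_dvd hqf.1).2 fun hd => ?_).symm
        have h1 : (q : ℕ) ^ ((Nat.card H).factorization q + 1) ∣ Nat.card H := by
          conv_rhs => rw [hcard R hRH hdisj hsup, hRcard]
          rw [pow_succ']; exact Nat.mul_dvd_mul_right hd _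
        have := (hqf.1.pow_dvd_iff_le_factorization Nat.card_pos.ne').1 h1
        omega
      refine s.complement_case hMne hMH hMab hmin hMA hqf.1 hRp hRH (hPA q) hdisj hsup hMr ?_
      intro L hLH hAL hd hs
      have hLcard : Nat.card L = Nat.card R := by
        have h1 := hcard L hLH hd hs
        rw [hcard R hRH hdisj hsup] at h1
        exact (Nat.eq_of_mul_eq_mul_left Nat.card_pos h1).symm
      obtain ⟨P', hP'⟩ := CoprimeAction.exists_sylow_map (p := (q : ℕ)) hLH (by rw [hLcard, hRcard])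
      obtain ⟨c, hc, hcP⟩ := CoprimeAction.invariant_sylow_conj s.nrm s.cop (Or.inl hsolA) (P q) P' (hPA q) (hP'.symm ▸ hAL)
      have hL : R.map (MulAut.conj (c : X)).toMonoidHom = L := by
        rw [← hP', ← hcP, CoprimeAction.sylow_map_conj]
        rfl
      -- decompose `c`
      have hn : R ≤ Subgroup.normalizer (M : Set X) := by rw [Subgroup.normalizer_eq_top]; exact le_top
      have hmul := Subgroup.coe_mul_of_right_le_normalizer_left M R hn
      have hcH : (c : X) ∈ ((M ⊔ R : Subgroup X) : Set X) := hsup.ge c.2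
      rw [hmul] at hcH
      obtain ⟨m, hm, t, ht, e⟩ := Set.mem_mul.1 hcH
      have hmA : m ∈ CA := by
        refine Subgroup.mem_centralizer_iff.2 fun b hb => ?_
        have hbc := Subgroup.mem_centralizer_iff.1 hc b hb
        have h1 : m⁻¹ * (b * m * b⁻¹) = t * (b * t * b⁻¹)⁻¹ := by
          rw [← e] at hbc
          calc m⁻¹ * (b * m * b⁻¹) = m⁻¹ * (b * (m * t)) * t⁻¹ * b⁻¹ := by group
            _ = t * (b * t * b⁻¹)⁻¹ := by rw [hbc]; group
        have h2 : m⁻¹ * (b * m * b⁻¹) ∈ M ⊓ R := ⟨M.mul_mem (M.inv_mem hm) (hMn.conj_mem m hm b),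
          h1 ▸ R.mul_mem ht (R.inv_mem (conj_mem (hPA q) hb ht))⟩
        rw [hdisj, Subgroup.mem_bot, inv_mul_eq_one] at h2
        exact mul_inv_eq_iff_eq_mul.1 h2.symm
      refine ⟨m, ⟨hm, hmA⟩, ?_⟩
      rw [← hL, ← e]
      ext x
      constructor
      · rintro ⟨r, hr, rfl⟩
        refine ⟨t⁻¹ * r * t, R.mul_mem (R.mul_mem (R.inv_mem ht) hr) ht, ?_⟩
        simp only [MulEquiv.coe_toMonoidHom, MulAut.conj_apply]
        group
      · rintro ⟨r, hr, rfl⟩
        refine ⟨t * r * t⁻¹, R.mul_mem (R.mul_mem ht hr) (R.inv_mem ht), ?_⟩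
        simp only [MulEquiv.coe_toMonoidHom, MulAut.conj_apply]
        group

/-- The statement for all finite groups. -/
theorem fixed_le_fixJoin : ∀ (n : ℕ) (X : Type u) [Group X] [Finite X] (p : ℕ) (A H : Subgroup X),
    Nat.card H ≤ n → p.Prime → p ≠ 2 → Nat.card A = p → A ≤ Subgroup.normalizer (H : Set X) →
    (Nat.card A).Coprime (Nat.card H) → Group.IsSolvable H →
    ⁅H, A⁆ ⊓ Subgroup.centralizer (A : Set X) ≤ fixJoin A H := by
  intro n
  induction n with
  | zero => intro X _ _ p A H hn; exact absurd (Nat.card_pos (α := ↥H)) (by omega)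
  | succ n ih =>
    intro X _ _ p A H hn hp hp2 hA hAH hcop hsol
    haveI := Fact.mk hp
    have hsolA : Group.IsSolvable A := by
      haveI : IsCyclic A := isCyclic_of_prime_card hA
      exact Group.isSolvable_of_comm IsCyclic.commGroup.mul_comm
    by_cases hgen : ⁅H, A⁆ = H
    swap
    · have hle := commutator_le_of_normalizer hAH
      have hlt : Nat.card ↥(⁅H, A⁆ : Subgroup X) < Nat.card H := by
        by_contra hcon
        exact hgen (Subgroup.eq_of_le_of_card_ge hle (by omega))
      have h := ih X p A ⁅H, A⁆ (by omega) hp hp2 hA (CoprimeAction.le_normalizer_commutator hAH)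
        (hcop.coprime_dvd_right (Subgroup.card_dvd_of_le hle))
        (Group.isSolvable_of_isSolvable_injective (Subgroup.inclusion_injective hle))
      rw [CoprimeAction.commutator_commutator_eq hAH hcop (Or.inl hsolA)] at h
      exact h.trans (fixJoin_mono A hle)
    -- pass to `H A`
    set Y := H ⊔ A with hY
    set A' := A.subgroupOf Y with hA'
    set H' := H.subgroupOf Y with hH'
    have hAmap : A'.map Y.subtype = A := Subgroup.map_subgroupOf_eq_of_le le_sup_right
    have hHmap : H'.map Y.subtype = H := Subgroup.map_subgroupOf_eq_of_le le_sup_left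
    have hcA : Nat.card A' = Nat.card A := by
      rw [← Subgroup.card_map_of_injective Y.subtype_injective, hAmap]
    have hcH : Nat.card H' = Nat.card H := by
      rw [← Subgroup.card_map_of_injective Y.subtype_injective, hHmap]
    have hsol' : Group.IsSolvable H' := Group.isSolvable_of_surjective
      (f := (Subgroup.subgroupOfEquivOfLe (le_sup_left : H ≤ Y)).symm.toMonoidHom) (MulEquiv.surjective _)
    have hnrm' : A' ≤ Subgroup.normalizer (H' : Set ↥Y) := by
      rw [Subgroup.le_normalizer_iff]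
      intro a ha h hh
      exact conj_mem hAH ha hh
    have hgen' : ⁅H', A'⁆ = H' := by
      refine Subgroup.map_injective Y.subtype_injective ?_
      rw [Subgroup.map_commutator, hAmap, hHmap, hgen]
    have htop : H' ⊔ A' = ⊤ := by
      refine Subgroup.map_injective Y.subtype_injective ?_
      rw [Subgroup.map_sup, hAmap, hHmap, ← MonoidHom.range_eq_map, Subgroup.range_subtype]
    have s : Setup p A' H' :=
      { prime := hp, odd := hp2, cardA := hcA.trans hA, nrm := hnrm', cop := by rw [hcA, hcH]; exact hcop,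
        sol := hsol', gen := hgen', top := htop,
        ih := fun L hL hAL => by
          have hlt : Nat.card L < Nat.card H' := by
            by_contra hcon
            exact hL.ne (Subgroup.eq_of_le_of_card_ge hL.le (by omega))
          refine (ih ↥Y p A' L (by omega) hp hp2 (hcA.trans hA) hAL ?_ ?_).trans (fixJoin_mono A' hL.le)
          · rw [hcA]
            refine hcop.coprime_dvd_right ?_
            rw [← hcH]; exact Subgroup.card_dvd_of_le hL.le
          · exact Group.isSolvable_of_isSolvable_injective (Subgroup.inclusion_injective hL.le) }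
    have hmain := s.main (fun M hMn hMH hMne => by
      set π := QuotientGroup.mk' M
      have hlt : Nat.card (H'.map π) < Nat.card H' := by
        have hd := Subgroup.card_map_dvd H' π
        refine lt_of_le_of_ne (Nat.le_of_dvd Nat.card_pos hd) fun he => hMne ?_
        rw [eq_bot_iff]
        intro m hm
        have hsurj : Function.Surjective (π.subgroupMap H') := π.subgroupMap_surjective H'
        have hbij := (Nat.bijective_iff_surjective_and_card (π.subgroupMap H')).2 ⟨hsurj, he.symm⟩
        have := hbij.1 (a₁ := ⟨m, hMH hm⟩) (a₂ := 1)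
          (Subtype.ext (show π m = π 1 by rw [map_one]; exact (QuotientGroup.eq_one_iff m).2 hm))
        exact Subgroup.mem_bot.2 (congrArg Subtype.val this)
      have hmc : (H' ⊓ Subgroup.centralizer (A' : Set ↥Y)).map π ≤
          ⁅H'.map π, A'.map π⁆ ⊓ Subgroup.centralizer (A'.map π : Set (↥Y ⧸ M)) := by
        rintro _ ⟨c, ⟨hc1, hc2⟩, rfl⟩
        refine ⟨?_, Subgroup.mem_centralizer_iff.2 ?_⟩
        · rw [← Subgroup.map_commutator, hgen']; exact Subgroup.mem_map_of_mem π hc1
        · rintro _ ⟨a, ha, rfl⟩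
          rw [← map_mul, ← map_mul, Subgroup.mem_centralizer_iff.1 hc2 a ha]
      refine hmc.trans ?_
      have hdA : Nat.card (A'.map π) ∣ p := hA ▸ hcA ▸ Subgroup.card_map_dvd A' π
      have hnA : A'.map π ≤ Subgroup.normalizer (H'.map π : Set (↥Y ⧸ M)) := by
        rw [Subgroup.le_normalizer_iff]
        rintro _ ⟨a, ha, rfl⟩ _ ⟨h, hh, rfl⟩
        exact ⟨a * h * a⁻¹, conj_mem hnrm' ha hh, by simp⟩
      rcases (Nat.dvd_prime hp).1 hdA with h1 | h1
      · rw [Subgroup.card_eq_one.1 h1, Subgroup.commutator_bot_right, bot_inf_eq]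
        exact bot_le
      · refine ih (↥Y ⧸ M) p (A'.map π) (H'.map π) (by omega) hp hp2 h1 hnA ?_ ?_
        · rw [h1, ← hA]
          refine hcop.coprime_dvd_right ?_
          rw [← hcH]; exact Subgroup.card_map_dvd H' π
        · exact Group.isSolvable_of_surjective (π.subgroupMap_surjective H'))
    rintro x ⟨hx, hxA⟩
    have hxH : x ∈ H := hgen.le hx
    have hxY : x ∈ Y := Subgroup.mem_sup_left hxH
    have hx' : (⟨x, hxY⟩ : ↥Y) ∈ H' ⊓ Subgroup.centralizer (A' : Set ↥Y) :=
      ⟨hxH, Subgroup.mem_centralizer_iff.2 fun a ha => Subtype.ext (Subgroup.mem_centralizer_iff.1 hxA a ha)⟩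
    have hh := map_fixJoin_le Y.subtype A' H' (Subgroup.mem_map_of_mem _ (hmain hx'))
    rwa [hAmap, hHmap] at hh

end CfsgLib.CommFixed
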