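import Cfsg.Agent.CommFixed.Basic

/-!
The `q`-group case: bilinear commutator forms vanishing on orbits.
-/

set_option autoImplicit false
set_option linter.unusedSectionVars false
set_option maxHeartbeats 800000

namespace CfsgLib.CommFixed

open scoped commutatorElement Pointwise
open CoprimeAction (exists_commutator_mul_centralizer)

variable {X : Type*} [Group X] [Finite X] {p q : ℕ} {A H : Subgroup X}

local notation "CA" => Subgroup.centralizer (A : Set X)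

/-- In class two, vanishing of the form on every orbit forces it to vanish. -/
theorem orbit_form_trivial {Q : Type*} [Group Q] (HQ Φ : Subgroup Q) (σ : MulAut Q)
    (hσH : ∀ u ∈ HQ, σ u ∈ HQ ∧ σ.symm u ∈ HQ)
    (hΦc : ∀ c ∈ Φ, σ c = c ∧ ∀ u ∈ HQ, c * u = u * c) (hcom : ∀ u ∈ HQ, ∀ v ∈ HQ, ⁅u, v⁆ ∈ Φ)
    (n : ℕ) (hn : ∀ u, (σ ^ n) u = u) (hΦn : ∀ c ∈ Φ, c ^ n = 1 → c = 1)
    (hvan : ∀ u ∈ HQ, ∀ i j : ℕ, ⁅u⁻¹ * (σ ^ i) u, u⁻¹ * (σ ^ j) u⁆ = 1) :
    ∀ v ∈ HQ, ∀ w ∈ HQ, ⁅v⁻¹ * (σ ^ 2) v, w⁆ = 1 := by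
  have hcc : ∀ u ∈ HQ, ∀ v ∈ HQ, ∀ w ∈ HQ, ⁅u, v⁆ * w = w * ⁅u, v⁆ := fun u hu v hv w hw =>
    (hΦc _ (hcom u hu v hv)).2 w hw
  have hmulL : ∀ u ∈ HQ, ∀ v ∈ HQ, ∀ w ∈ HQ, ⁅u * v, w⁆ = ⁅u, w⁆ * ⁅v, w⁆ := by
    intro u hu v hv w hw
    calc ⁅u * v, w⁆ = u * ⁅v, w⁆ * u⁻¹ * ⁅u, w⁆ := by simp only [commutatorElement_def]; group
      _ = ⁅v, w⁆ * ⁅u, w⁆ := by rw [← hcc v hv w hw u hu, mul_inv_cancel_right]
      _ = ⁅u, w⁆ * ⁅v, w⁆ := hcc v hv w hw _ (by
          rw [commutatorElement_def]; exact mul_mem (mul_mem (mul_mem hu hw) (inv_mem hu)) (inv_mem hw))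
  have hswap : ∀ u v : Q, ⁅v, u⁆ = ⁅u, v⁆⁻¹ := fun u v => (commutatorElement_inv u v).symm
  have hinvL : ∀ u ∈ HQ, ∀ w ∈ HQ, ⁅u⁻¹, w⁆ = ⁅u, w⁆⁻¹ := by
    intro u hu w hw
    refine eq_inv_of_mul_eq_one_left ?_
    rw [← hmulL _ (inv_mem hu) _ hu _ hw, inv_mul_cancel, commutatorElement_one_left]
  have hmulR : ∀ u ∈ HQ, ∀ v ∈ HQ, ∀ w ∈ HQ, ⁅w, u * v⁆ = ⁅w, v⁆ * ⁅w, u⁆ := by
    intro u hu v hv w hw
    rw [hswap (u * v) w, hmulL u hu v hv w hw, mul_inv_rev, ← hswap, ← hswap]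
  have hinvR : ∀ u ∈ HQ, ∀ w ∈ HQ, ⁅w, u⁻¹⁆ = ⁅w, u⁆⁻¹ := by
    intro u hu w hw
    rw [hswap u⁻¹ w, hinvL u hu w hw, inv_inv, hswap u w, inv_inv]
  have hsig : ∀ u ∈ HQ, ∀ v ∈ HQ, ⁅σ u, σ v⁆ = ⁅u, v⁆ := fun u hu v hv => by
    rw [← (hΦc _ (hcom u hu v hv)).1]; simp [commutatorElement_def]
  have hpow : ∀ (i : ℕ) (u : Q), u ∈ HQ → (σ ^ i) u ∈ HQ := by
    intro i
    induction i with
    | zero => intro u hu; exact hu
    | succ i ih => intro u hu; rw [pow_succ']; exact (hσH _ (ih u hu)).1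
  have hpowsig : ∀ (i : ℕ), ∀ u ∈ HQ, ∀ v ∈ HQ, ⁅(σ ^ i) u, (σ ^ i) v⁆ = ⁅u, v⁆ := by
    intro i
    induction i with
    | zero => intro u _ v _; rfl
    | succ i ih =>
      intro u hu v hv
      rw [pow_succ']
      show ⁅σ ((σ ^ i) u), σ ((σ ^ i) v)⁆ = _
      rw [hsig _ (hpow i u hu) _ (hpow i v hv), ih u hu v hv]
  -- the form vanishes on `(u, σ u)`
  have hone : ∀ u ∈ HQ, ⁅u, σ u⁆ = 1 := by
    intro u hu
    set f : ℕ → Q := fun i => ⁅u, (σ ^ i) u⁆ with hf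
    have hadd : ∀ i j : ℕ, f (i + j) = f i * f j := by
      intro i j
      have hui := hpow i u hu
      have huj := hpow (i + j) u hu
      have h := hvan u hu i (i + j)
      rw [hmulL _ (inv_mem hu) _ hui _ (mul_mem (inv_mem hu) huj), hinvL _ hu _ (mul_mem (inv_mem hu) huj),
        hmulR _ (inv_mem hu) _ huj _ hu, hmulR _ (inv_mem hu) _ huj _ hui, hinvR _ hu _ hu, hinvR _ hu _ hui,
        commutatorElement_self, inv_one, mul_one] at h
      have e1 : ⁅(σ ^ i) u, (σ ^ (i + j)) u⁆ = f j := by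
        rw [pow_add]; exact hpowsig i u hu _ (hpow j u hu)
      have e2 : ⁅(σ ^ i) u, u⁆⁻¹ = f i := by rw [hf]; exact (hswap _ _).symm
      rw [e1, e2] at h
      show f (i + j) = f i * f j
      have h3 : f j * f i = f (i + j) := inv_mul_eq_one.1 h |>.symm
      rw [← h3]
      exact hcc u hu _ (hpow j u hu) _ (by
        rw [hf]; simp only [commutatorElement_def]
        exact mul_mem (mul_mem (mul_mem hu hui) (inv_mem hu)) (inv_mem hui))
    have hf0 : f 0 = 1 := by simp [hf]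
    have hfk : ∀ k, f k = f 1 ^ k := by
      intro k
      induction k with
      | zero => rw [hf0, pow_zero]
      | succ k ih => rw [hadd, ih, pow_succ]
    have hfn : f n = 1 := by simp only [hf]; rw [hn, commutatorElement_self]
    rw [hfk] at hfn
    have := hΦn _ (hcom u hu _ (hpow 1 u hu)) hfn
    simpa [hf] using this
  have hpol : ∀ u ∈ HQ, ∀ v ∈ HQ, ⁅u, σ v⁆ = ⁅σ u, v⁆ := by
    intro u hu v hv
    have h := hone (u * v) (mul_mem hu hv)
    have hsu := (hσH u hu).1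
    have hsv := (hσH v hv).1
    rw [map_mul, hmulL _ hu _ hv _ (mul_mem hsu hsv), hmulR _ hsu _ hsv _ hu, hmulR _ hsu _ hsv _ hv,
      hone u hu, hone v hv, mul_one, one_mul] at h
    rw [eq_inv_of_mul_eq_one_left h, ← hswap]
  intro v hv w hw
  have hsv := (hσH v hv).1
  have h1 : ⁅w, (σ ^ 2) v⁆ = ⁅w, v⁆ := by
    rw [pow_two]
    show ⁅w, σ (σ v)⁆ = _
    rw [hpol w hw _ hsv, hsig w hw v hv]
  have h2 : ⁅w, v⁻¹ * (σ ^ 2) v⁆ = 1 := by
    rw [hmulR _ (inv_mem hv) _ (hpow 2 v hv) _ hw, h1, hinvR _ hv _ hw, mul_inv_cancel]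
  rw [hswap, h2, inv_one]

/-- The `q`-group case. -/
theorem Setup.of_isPGroup (s : Setup p A H) (hq : q.Prime) (hH : IsPGroup q H) :
    H ⊓ CA ≤ fixJoin A H := by
  classical
  haveI := Fact.mk hq
  haveI := Fact.mk s.prime
  rcases eq_or_ne H ⊥ with rfl | hne
  · rw [bot_inf_eq]; exact bot_le
  by_cases hbig : ∃ h ∈ H, commOf A h = H
  · obtain ⟨h, hh, e⟩ := hbig
    exact fun c hc => mem_fixJoin hh (e.symm ▸ hc.1) hc.2
  push Not at hbig
  haveI hHn : H.Normal := s.normalH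
  set Φ : Subgroup X := (frattini ↥H).map H.subtype with hΦ
  have hΦH : Φ ≤ H := Subgroup.map_subtype_le _
  haveI hΦn : Φ.Normal := ConjAct.normal_of_characteristic_of_normal
  have hΦtop : frattini ↥H ≠ ⊤ := by
    intro h
    have : (⊥ : Subgroup ↥H) = ⊤ := frattini_nongenerating (K := (⊥ : Subgroup ↥H)) (by rw [h, bot_sup_eq])
    exact hne (le_bot_iff.1 fun x hx => by
      have := this.ge (Subgroup.mem_top ⟨x, hx⟩)
      rw [Subgroup.mem_bot] at this ⊢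
      exact congrArg Subtype.val this)
  have hder : ⁅H, H⁆ ≤ Φ := by
    refine Subgroup.commutator_le.2 fun u hu v hv => ?_
    exact ⟨⁅(⟨u, hu⟩ : ↥H), ⟨v, hv⟩⁆, CoprimeAction.commutator_le_frattini' hH
      (Subgroup.commutator_mem_commutator (Subgroup.mem_top _) (Subgroup.mem_top _)), rfl⟩
  have hAn : ∀ T : Subgroup X, T.Normal → A ≤ Subgroup.normalizer (T : Set X) := fun T hT => by
    rw [Subgroup.normalizer_eq_top]; exact le_top
  have hCΦ : H ⊓ CA ≤ Φ := s.fixed_le_of_commutator_le hder hΦH (hAn Φ hΦn)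
  have hΦlt : Φ < H := by
    refine lt_of_le_of_ne hΦH fun h => hΦtop ?_
    rw [eq_top_iff]
    intro x _
    obtain ⟨y, hy, e⟩ := h.ge x.2
    rwa [← Subtype.ext e]
  set S := ⁅Φ, A⁆ ⊔ (fixJoin A H ⊓ Φ) with hS
  -- every element normalizes `S`
  have hnorm : H ≤ Subgroup.normalizer (S : Set X) := by
    intro h hh
    set L := Φ ⊔ commOf A h with hL
    have hDH : commOf A h ≤ H := (commOf_le hh).trans_eq s.gen
    have hLH : L ≤ H := sup_le hΦH hDH
    have hAL : A ≤ Subgroup.normalizer (L : Set X) := by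
      rw [Subgroup.le_normalizer_iff]
      intro a ha x hx
      have hle : L ≤ L.comap (MulAut.conj a).toMonoidHom := sup_le
        (fun y hy => Subgroup.mem_sup_left (hΦn.conj_mem y hy a))
        (fun y hy => Subgroup.mem_sup_right (CoprimeAction.conj_mem (le_normalizer_commOf A h) ha hy))
      exact hle hx
    have hLlt : L < H := by
      refine lt_of_le_of_ne hLH fun e => hbig h hh ?_
      have ht : (commOf A h).subgroupOf H ⊔ frattini ↥H = ⊤ := by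
        refine Subgroup.map_injective H.subtype_injective ?_
        rw [Subgroup.map_sup, Subgroup.map_subgroupOf_eq_of_le hDH, ← MonoidHom.range_eq_map,
          Subgroup.range_subtype, sup_comm]
        exact e
      have := frattini_nongenerating ht
      exact le_antisymm hDH fun x hx => this.ge (Subgroup.mem_top ⟨x, hx⟩)
    obtain ⟨n, hn, hc⟩ := s.exists_fixed_rep_commOf hLH hAL hh le_sup_right
    have hhL : h ∈ L := by
      have := mul_mem (Subgroup.mem_sup_left (hCΦ ⟨mul_mem hh (hLH hn), hc⟩)) (inv_mem hn)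
      rwa [mul_inv_cancel_right] at this
    exact s.step hΦH hLH hAL (by rwa [show Φ ⊔ L = L from sup_eq_right.2 le_sup_left]) hhL
  haveI hSn : S.Normal := s.normal_of hnorm (s.le_normalizer_known Φ)
  have hSΦ : S ≤ Φ := s.commutator_sup_le Φ
  have hΦA : ⁅Φ, A⁆ ⊓ CA ≤ fixJoin A H := s.ih Φ hΦlt (hAn Φ hΦn)
  -- every `[u, A]` meets `Φ` inside `S`
  have hmeet : ∀ u ∈ H, commOf A u ⊓ Φ ≤ S := by
    intro u hu t ht
    have hAi : A ≤ Subgroup.normalizer ((commOf A u ⊓ Φ : Subgroup X) : Set X) :=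
      (le_inf (le_normalizer_commOf A u) (hAn Φ hΦn)).trans Subgroup.inf_normalizer_le_normalizer_inf
    obtain ⟨n, hn, c, hc, rfl⟩ := exists_commutator_mul_centralizer hAi
      (s.copLE (inf_le_right.trans hΦH)) (Or.inl s.solA) ht
    exact mul_mem (Subgroup.mem_sup_left (Subgroup.commutator_mono inf_le_right le_rfl hn))
      (Subgroup.mem_sup_right ⟨mem_fixJoin hu hc.1.1 hc.2, hc.1.2⟩)
  -- the quotient by `S`
  set π := QuotientGroup.mk' S with hπ
  have hπsurj : Function.Surjective π := QuotientGroup.mk'_surjective S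
  obtain ⟨a₀, ha₀⟩ : ∃ a₀ : A, orderOf a₀ = p := exists_prime_orderOf_dvd_card' p (by rw [s.cardA])
  set a : X := (a₀ : X) with ha
  have haA : a ∈ A := a₀.2
  have hap : a ^ p = 1 := by rw [ha, ← ha₀, ← Subgroup.orderOf_coe, pow_orderOf_eq_one]
  have hgenA : Subgroup.zpowers a = A := by
    refine Subgroup.eq_of_le_of_card_ge (Subgroup.zpowers_le.2 haA) ?_
    rw [Nat.card_zpowers, ha, Subgroup.orderOf_coe, ha₀, s.cardA]
  set σ : MulAut (X ⧸ S) := MulAut.conj (π a) with hσ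
  have hσπ : ∀ (i : ℕ) (x : X), (σ ^ i) (π x) = π (a ^ i * x * (a ^ i)⁻¹) := by
    intro i x
    rw [hσ, ← map_pow, MulAut.conj_apply, map_mul, map_mul, map_inv, map_pow]
  set HQ := H.map π with hHQ
  set ΦQ := Φ.map π with hΦQ
  have hfixΦ : ∀ f ∈ Φ, ∀ b ∈ A, π (b * f * b⁻¹) = π f := by
    intro f hf b hb
    refine (QuotientGroup.eq).2 ?_
    have : ⁅f, b⁆ ∈ S := Subgroup.mem_sup_left (Subgroup.commutator_mem_commutator hf hb)
    have h2 := hSn.conj_mem _ (inv_mem this) f⁻¹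
    rw [commutatorElement_def] at h2
    have h3 : (b * f * b⁻¹)⁻¹ * f = f⁻¹ * (f * b * f⁻¹ * b⁻¹) * f⁻¹⁻¹ := by group
    rw [h3]
    exact hSn.conj_mem _ this f⁻¹
  have hcentral : ∀ h ∈ H, ∀ f ∈ Φ, π h * π f = π f * π h := by
    refine s.gen_induction ?_ (fun f _ => by simp) (fun u v hu hv f hf => ?_) (fun u hu f hf => ?_)
    · intro h hh b hb f hf
      have hf' : h⁻¹ * f * h ∈ Φ := by simpa using hΦn.conj_mem f hf h⁻¹
      have h1 := hfixΦ _ hf' b hb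
      have h2 := hfixΦ f hf b⁻¹ (inv_mem hb)
      simp only [map_mul, map_inv] at h1 h2 ⊢
      rw [inv_inv] at h2
      calc π ⁅h, b⁆ * π f = π h * π b * (π h)⁻¹ * ((π b)⁻¹ * π f * π b) * (π b)⁻¹ := by
            rw [commutatorElement_def]; simp only [map_mul, map_inv]; group
        _ = π h * (π b * ((π h)⁻¹ * π f * π h) * (π b)⁻¹) * π b * (π h)⁻¹ * (π b)⁻¹ := by rw [h2]; group
        _ = π f * π ⁅h, b⁆ := by rw [h1, commutatorElement_def]; simp only [map_mul, map_inv]; group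
    · rw [map_mul, mul_assoc, hv f hf, ← mul_assoc, hu f hf, mul_assoc]
    · rw [map_inv, inv_mul_eq_iff_eq_mul, ← mul_assoc, hu f hf, mul_inv_cancel_right]
  have hkey := orbit_form_trivial HQ ΦQ σ ?_ ?_ ?_ p ?_ ?_ ?_
  rotate_left
  · rintro _ ⟨u, hu, rfl⟩
    refine ⟨⟨a * u * a⁻¹, hHn.conj_mem u hu a, ?_⟩, ⟨a⁻¹ * u * a⁻¹⁻¹, hHn.conj_mem u hu _, ?_⟩⟩
    · simpa using (hσπ 1 u).symm
    · apply σ.injective
      rw [MulEquiv.apply_symm_apply, hσ, MulAut.conj_apply]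
      simp [map_mul, map_inv, mul_assoc]
  · rintro _ ⟨f, hf, rfl⟩
    refine ⟨?_, ?_⟩
    · rw [hσ, MulAut.conj_apply, ← map_inv, ← map_mul, ← map_mul]
      exact hfixΦ f hf a haA
    · rintro _ ⟨u, hu, rfl⟩
      exact (hcentral u hu f hf).symm
  · rintro _ ⟨u, hu, rfl⟩ _ ⟨v, hv, rfl⟩
    exact ⟨⁅u, v⁆, hder (Subgroup.commutator_mem_commutator hu hv), map_commutatorElement π u v⟩
  · intro u
    obtain ⟨x, rfl⟩ := hπsurj u
    rw [hσπ, hap]; simp
  · rintro _ ⟨f, hf, rfl⟩ hp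
    refine orderOf_eq_one_iff.1 (Nat.eq_one_of_dvd_coprimes s.cop ?_ ?_)
    · rw [s.cardA]; exact orderOf_dvd_of_pow_eq_one hp
    · refine (orderOf_map_dvd π f).trans ?_
      exact Subgroup.orderOf_dvd_natCard H (hΦH hf)
  · rintro _ ⟨u, hu, rfl⟩ i j
    have hd : ∀ i : ℕ, u⁻¹ * (a ^ i * u * (a ^ i)⁻¹) ∈ commOf A u := fun i =>
      Subgroup.subset_closure ⟨a ^ i, pow_mem haA i, by rw [commutatorElement_def]; group⟩
    rw [hσπ, hσπ, ← map_inv, ← map_mul, ← map_mul, ← map_commutatorElement]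
    refine (QuotientGroup.eq_one_iff _).2 (hmeet u hu ⟨?_, ?_⟩)
    · rw [commutatorElement_def]
      exact (commOf A u).mul_mem ((commOf A u).mul_mem ((commOf A u).mul_mem (hd i) (hd j)) ((commOf A u).inv_mem (hd i))) ((commOf A u).inv_mem (hd j))
    · refine hder (Subgroup.commutator_mem_commutator ?_ ?_) <;>
        exact mul_mem (inv_mem hu) (hHn.conj_mem u hu _)
  -- `H' ≤ S`
  have hgen2 : Subgroup.zpowers (a ^ 2) = A := by
    refine Subgroup.eq_of_le_of_card_ge (Subgroup.zpowers_le.2 (pow_mem haA 2)) ?_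
    rw [Nat.card_zpowers, orderOf_pow, ha, Subgroup.orderOf_coe, ha₀, s.cardA,
      (Nat.coprime_primes s.prime Nat.prime_two).2 s.odd, Nat.div_one]
  -- the elements of `A` moving all of `H` into the centre modulo `S`
  let B : Subgroup X :=
    { carrier := {b | b ∈ A ∧ ∀ v ∈ H, ∀ w ∈ H, π ⁅v⁻¹ * (b * v * b⁻¹), w⁆ = 1}
      one_mem' := ⟨one_mem _, fun v _ w _ => by simp [commutatorElement_def]⟩
      mul_mem' := by
        rintro b c ⟨hb, hb'⟩ ⟨hc, hc'⟩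
        refine ⟨mul_mem hb hc, fun v hv w hw => ?_⟩
        set v' := c * v * c⁻¹ with hv'
        have hv'H : v' ∈ H := hHn.conj_mem v hv c
        have e : v⁻¹ * (b * c * v * (b * c)⁻¹) = (v⁻¹ * v') * (v'⁻¹ * (b * v' * b⁻¹)) := by rw [hv']; group
        have e2 : ∀ x y : X, ⁅x * y, w⁆ = x * ⁅y, w⁆ * x⁻¹ * ⁅x, w⁆ := fun x y => by
          simp only [commutatorElement_def]; group
        rw [e, e2, map_mul, map_mul, map_mul, hb' v' hv'H w hw, hc' v hv w hw]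
        simp
      inv_mem' := by
        rintro b ⟨hb, hb'⟩
        refine ⟨inv_mem hb, fun v hv w hw => ?_⟩
        set v' := b⁻¹ * v * b⁻¹⁻¹ with hv'
        set x := v⁻¹ * v'
        have hv'H : v' ∈ H := hHn.conj_mem v hv _
        have h := hb' v' hv'H w hw
        have e : v'⁻¹ * (b * v' * b⁻¹) = x⁻¹ := by simp only [x, hv']; group
        rw [e] at h
        have e2 : ⁅x, w⁆ = x * ⁅x⁻¹, w⁆⁻¹ * x⁻¹ := by simp only [commutatorElement_def]; group
        rw [e2, map_mul, map_mul, map_inv π (⁅x⁻¹, w⁆), h]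
        simp }
  have hAB : A ≤ B := by
    rw [← hgen2, Subgroup.zpowers_le]
    refine ⟨pow_mem haA 2, fun v hv w hw => ?_⟩
    have := hkey (π v) ⟨v, hv, rfl⟩ (π w) ⟨w, hw, rfl⟩
    rwa [hσπ, ← map_inv, ← map_mul, ← map_commutatorElement] at this
  have hHS : ⁅H, H⁆ ≤ S := by
    refine Subgroup.commutator_le.2 fun u hu w hw => (QuotientGroup.eq_one_iff _).1 ?_
    show π ⁅u, w⁆ = 1
    revert w
    refine s.gen_induction (motive := fun u => ∀ w ∈ H, π ⁅u, w⁆ = 1) ?_ ?_ ?_ ?_ u hu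
    · intro h hh b hb w hw
      have := (hAB hb).2 h⁻¹ (inv_mem hh) w hw
      rw [show ⁅h, b⁆ = h⁻¹⁻¹ * (b * h⁻¹ * b⁻¹) by rw [commutatorElement_def]; group]
      exact this
    · intro w _; simp
    · intro x y hx hy w hw
      rw [show ⁅x * y, w⁆ = x * ⁅y, w⁆ * x⁻¹ * ⁅x, w⁆ by simp only [commutatorElement_def]; group,
        map_mul, map_mul, map_mul, hy w hw, hx w hw]
      simp
    · intro x hx w hw
      rw [show ⁅x⁻¹, w⁆ = x⁻¹ * ⁅x, w⁆⁻¹ * x by simp only [commutatorElement_def]; group,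
        map_mul, map_mul, map_inv π ⁅x, w⁆, hx w hw]
      simp
  have hCS : H ⊓ CA ≤ S := s.fixed_le_of_commutator_le hHS (hSΦ.trans hΦH) (hAn S hSn)
  exact fun c hc => s.known_inf_centralizer hΦA ⟨hCS hc, hc.2⟩

end CfsgLib.CommFixed
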